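import Mathlib
import Cfsg.Agent.PSolv.Basic
import Cfsg.Agent.PSolv.HallHigman
import Cfsg.Agent.CycPairs.Galois

/-!
# Elementary abelian Sylow subgroups with one class of nontrivial elements

If moreover centralisers of elements of order `p` are `p`-nilpotent and any two of them generate a
`p`-solvable group, a perfect simple group forces `p = 2`.
-/

set_option autoImplicit false
set_option linter.unusedSectionVars false
set_option linter.style.haveILetI false

open scoped ComplexConjugate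

namespace Cfsg.Agent.CycPairs

open Subgroup Cfsg

universe u

variable {G : Type u} [Group G] [Fintype G] {p : ℕ} [hp : Fact p.Prime]

/-- Two regular products `x y` with `y` on the same line coincide. -/
theorem line_unique (hab : ∀ S : Sylow p G, IsMulCommutative (S : Subgroup G)) {x y z : G}
    (hx : orderOf x = p) (hy : orderOf y = p) (hz : z ∈ zpowers y)
    (hsol : Cfsg.IsPSolvable p ↥(closure ({x, y} : Set G)))
    (h1 : ¬ p ∣ orderOf (x * y)) (h2 : ¬ p ∣ orderOf (x * z)) : z = y := by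
  set H := closure ({x, y} : Set G) with hH
  have hxH : x ∈ H := subset_closure (by simp)
  have hyH : y ∈ H := subset_closure (by simp)
  have hzH : z ∈ H := zpowers_le.2 hyH hz
  haveI := Cfsg.pPrimeCore_normal p H
  set N := Cfsg.pPrimeCore p H with hN
  set f := QuotientGroup.mk' N with hf
  haveI := Cfsg.pCore_normal p (H ⧸ N)
  have hO := PSolv.pPrimeCore_quotient_eq_bot p H
  have hcen := PSolv.centralizer_pCore_le (PSolv.isPSolvable_quotient hsol N) hO
  have hmem : ∀ w : H, w ^ p = 1 → f w ∈ Cfsg.pCore p (H ⧸ N) := by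
    intro w hw
    have hpg : IsPGroup p ↥(zpowers w) := by
      refine fun v => ⟨1, ?_⟩
      obtain ⟨v, hv⟩ := v
      obtain ⟨k, rfl⟩ := mem_zpowers_iff.1 hv
      refine Subtype.ext ?_
      show (w ^ k) ^ (p ^ 1) = 1
      rw [pow_one, ← zpow_natCast, ← zpow_mul, mul_comm, zpow_mul, zpow_natCast, hw, one_zpow]
    obtain ⟨T, hT⟩ := hpg.exists_le_sylow
    have hTab : ∀ a ∈ (T : Subgroup H), ∀ b ∈ (T : Subgroup H), a * b = b * a := by
      intro a ha b hb
      obtain ⟨S, hS⟩ := (T.2.map H.subtype).exists_le_sylow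
      have := (hab S).is_comm.comm ⟨(a : G), hS ⟨a, ha, rfl⟩⟩ ⟨(b : G), hS ⟨b, hb, rfl⟩⟩
      exact Subtype.ext (congrArg Subtype.val this : _)
    let TQ : Sylow p (H ⧸ N) := T.mapSurjective (QuotientGroup.mk'_surjective N)
    refine hcen (mem_centralizer_iff.2 fun v hv => ?_)
    obtain ⟨a, ha, rfl⟩ := PSolv.pCore_le_sylow TQ hv
    rw [← map_mul, ← map_mul, hTab a ha w (hT (mem_zpowers w))]
  have hone : ∀ w : G, ∀ hw : w ∈ H, orderOf w = p → (⟨w, hw⟩ : H) ^ p = 1 := fun w hw ho =>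
    Subtype.ext (by rw [SubgroupClass.coe_pow, OneMemClass.coe_one, ← ho, pow_orderOf_eq_one])
  have hzp : z ^ p = 1 := by
    obtain ⟨k, rfl⟩ := mem_zpowers_iff.1 hz
    rw [← zpow_natCast, ← zpow_mul, mul_comm, zpow_mul, zpow_natCast, ← hy, pow_orderOf_eq_one,
      one_zpow]
  have key : ∀ w : H, w ^ p = 1 → ¬ p ∣ orderOf ((⟨x, hxH⟩ : H) * w) →
      f ⟨x, hxH⟩ * f w = 1 := by
    intro w hw hreg
    have h3 : f ⟨x, hxH⟩ * f w ∈ Cfsg.pCore p (H ⧸ N) :=
      mul_mem (hmem _ (hone x hxH hx)) (hmem w hw)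
    obtain ⟨k, hk⟩ := PSolv.isPGroup_pCore p (H ⧸ N) ⟨_, h3⟩
    have h4 : orderOf (f ⟨x, hxH⟩ * f w) ∣ p ^ k :=
      orderOf_dvd_of_pow_eq_one (congrArg Subtype.val hk)
    have h5 : orderOf (f ⟨x, hxH⟩ * f w) ∣ orderOf ((⟨x, hxH⟩ : H) * w) := by
      rw [← map_mul]; exact orderOf_map_dvd f _
    exact orderOf_eq_one_iff.1 (Nat.eq_one_of_dvd_one ((Nat.dvd_gcd h5 h4).trans
      (dvd_of_eq (((hp.out.coprime_iff_not_dvd).2 hreg).symm.pow_right k))))
  have e1 := key ⟨y, hyH⟩ (hone y hyH hy) (by rwa [← orderOf_coe])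
  have e2 := key ⟨z, hzH⟩ (Subtype.ext (by simpa using hzp)) (by rwa [← orderOf_coe])
  have e3 : f (⟨y, hyH⟩ * (⟨z, hzH⟩ : H)⁻¹) = 1 := by
    rw [map_mul, map_inv, mul_inv_eq_one]
    exact mul_left_cancel (e1.trans e2.symm)
  have h6 : (⟨y, hyH⟩ * (⟨z, hzH⟩ : H)⁻¹) ∈ N := (QuotientGroup.eq_one_iff _).1 e3
  have h7 : y * z⁻¹ ∈ zpowers y := mul_mem (mem_zpowers y) (inv_mem hz)
  have h8 : orderOf (y * z⁻¹) ∣ p := hy ▸ orderOf_dvd_of_mem_zpowers h7
  have h9 : orderOf (y * z⁻¹) ∣ Nat.card N := by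
    have := orderOf_dvd_natCard (⟨_, h6⟩ : N)
    rwa [orderOf_mk, ← orderOf_coe] at this
  have : y * z⁻¹ = 1 := orderOf_eq_one_iff.1 (Nat.eq_one_of_dvd_one
    ((Nat.dvd_gcd h9 h8).trans (dvd_of_eq (PSolv.coprime_card_pPrimeCore p H))))
  exact (mul_inv_eq_one.1 this).symm

open scoped Classical in
theorem card_regular_le (hab : ∀ S : Sylow p G, IsMulCommutative (S : Subgroup G))
    (hsol : ∀ a b : G, orderOf a = p → orderOf b = p →
      Cfsg.IsPSolvable p ↥(closure ({a, b} : Set G))) {x : G} (hx : orderOf x = p) :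
    (p - 1) * (Finset.univ.filter fun y : G => orderOf y = p ∧ ¬ p ∣ orderOf (x * y)).card ≤
      (Finset.univ.filter fun y : G => orderOf y = p).card := by
  set R := Finset.univ.filter fun y : G => orderOf y = p ∧ ¬ p ∣ orderOf (x * y) with hR
  have hnd : ∀ k ∈ Finset.Icc 1 (p - 1), k.Coprime p := fun k hk => by
    obtain ⟨h1, h2⟩ := Finset.mem_Icc.1 hk
    rw [Nat.coprime_comm, hp.out.coprime_iff_not_dvd]
    intro hd
    have := Nat.le_of_dvd h1 hd
    have := hp.out.one_lt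
    omega
  calc (p - 1) * R.card = (R ×ˢ Finset.Icc 1 (p - 1)).card := by
        rw [Finset.card_product, Nat.card_Icc, mul_comm]; congr 1
    _ ≤ _ := by
      refine Finset.card_le_card_of_injOn (fun t => t.1 ^ t.2) ?_ ?_
      · intro t ht
        obtain ⟨h1, h2⟩ := Finset.mem_product.1 ht
        refine Finset.mem_filter.2 ⟨Finset.mem_univ _, ?_⟩
        have ho := (Finset.mem_filter.1 h1).2.1
        rw [Nat.Coprime.orderOf_pow (by rw [ho]; exact (hnd _ h2).symm), ho]
      · rintro ⟨y, k⟩ hyk ⟨z, l⟩ hzl (heq : y ^ k = z ^ l)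
        obtain ⟨hy', hk⟩ := Finset.mem_product.1 hyk
        obtain ⟨hz', hl⟩ := Finset.mem_product.1 hzl
        obtain ⟨-, hy, hy1⟩ := Finset.mem_filter.1 hy'
        obtain ⟨-, hz, hz1⟩ := Finset.mem_filter.1 hz'
        have hzy : z ∈ zpowers y := by
          have h1 : zpowers (z ^ l) = zpowers z :=
            Subgroup.eq_of_le_of_card_ge (zpowers_le.2 (pow_mem (mem_zpowers z) l))
              (le_of_eq (by rw [Nat.card_zpowers, Nat.card_zpowers,
                Nat.Coprime.orderOf_pow (by rw [hz]; exact (hnd l hl).symm)]))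
          have h2 : z ^ l ∈ zpowers y := heq ▸ pow_mem (mem_zpowers y) k
          exact (zpowers_le.2 h2) (h1.symm ▸ mem_zpowers z)
        have he := line_unique hab hx hy hzy (hsol x y hx hy) hy1 hz1
        subst he
        rw [pow_eq_pow_iff_modEq, hz] at heq
        have := Finset.mem_Icc.1 hk
        have := Finset.mem_Icc.1 hl
        rw [Nat.ModEq.eq_of_lt_of_lt heq (by omega) (by omega)]

open scoped Classical in
set_option maxHeartbeats 1600000 in
theorem eq_two_of_elementary [IsSimpleGroup G] (P : Sylow p G) (hP1 : (P : Subgroup G) ≠ ⊥)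
    (hPe : Cfsg.IsElementaryAbelian p (P : Subgroup G))
    (hconj : ∀ x ∈ (P : Subgroup G), ∀ y ∈ (P : Subgroup G), x ≠ 1 → y ≠ 1 →
      ∃ g : G, g * x * g⁻¹ = y)
    (hb : ∀ x ∈ (P : Subgroup G), orderOf x = p →
      Cfsg.HasNormalPComplement p ↥(centralizer ({x} : Set G)))
    (hc : ∀ x y : G, orderOf x = p → orderOf y = p →
      Cfsg.IsPSolvable p ↥(closure ({x, y} : Set G))) : p = 2 := by
  by_contra hp2
  have hp3 : 3 ≤ p := by
    have := hp.out.two_le; omega
  obtain ⟨⟨x, hxP⟩, hx1'⟩ := (Subgroup.ne_bot_iff_exists_ne_one).1 hP1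
  have hx1 : x ≠ 1 := fun h => hx1' (Subtype.ext h)
  have hord : ∀ u ∈ (P : Subgroup G), u ≠ 1 → orderOf u = p := fun u hu h1 =>
    orderOf_eq_prime (hPe.2 u hu) h1
  have hx := hord x hxP hx1
  haveI := hPe.1
  have hab : ∀ S : Sylow p G, IsMulCommutative (S : Subgroup G) := fun S =>
    ⟨⟨fun a b => (P.equiv S).symm.injective (by
      rw [map_mul, map_mul]; exact mul_comm' _ _)⟩⟩
  have hcP : ∀ S : Sylow p G, ∀ v ∈ (S : Subgroup G), v ≠ 1 → orderOf v = p := by
    intro S v hv h1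
    have := (P.equiv S).symm.toMonoidHom
    set w := (P.equiv S).symm ⟨v, hv⟩ with hw
    have hw1 : (w : G) ≠ 1 := fun h => h1 (by
      have h2 : w = 1 := Subtype.ext h
      rw [hw, map_eq_one_iff _ (MulEquiv.injective _)] at h2
      exact congrArg Subtype.val h2)
    have h3 := hord w w.2 hw1
    rw [orderOf_coe, hw, MulEquiv.orderOf_eq] at h3
    rwa [← orderOf_mk v hv]
  -- every element of order `p` is conjugate to `x`
  have hclass : ∀ v : G, orderOf v = p → ∃ k : G, k * x * k⁻¹ = v := by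
    intro v hv
    obtain ⟨S, hS⟩ := (IsPGroup.of_card (n := 1) (by rw [Nat.card_zpowers, hv, pow_one]) :
      IsPGroup p ↥(zpowers v)).exists_le_sylow
    obtain ⟨k, hk⟩ := MulAction.exists_smul_eq G S P
    have hv2 : k * v * k⁻¹ ∈ (P : Subgroup G) := by
      rw [← hk]
      exact Subgroup.mem_map_of_mem (MulAut.conj k).toMonoidHom (hS (mem_zpowers v))
    obtain ⟨l, hl⟩ := hconj x hxP _ hv2 hx1 (fun h => by
      rw [mul_inv_eq_one] at h
      have : v = 1 := mul_left_cancel (h.trans (mul_one k).symm)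
      rw [this, orderOf_one] at hv
      exact hp.out.one_lt.ne hv)
    exact ⟨k⁻¹ * l, by rw [show k⁻¹ * l * x * (k⁻¹ * l)⁻¹ = k⁻¹ * (l * x * l⁻¹) * k by group, hl]; group⟩
  -- the regular part of `C(x)`
  set C := centralizer ({x} : Set G) with hC
  have hxC : x ∈ C := mem_centralizer_singleton_iff.2 rfl
  have hPC : (P : Subgroup G) ≤ C := fun u hu => mem_centralizer_singleton_iff.2
    (congrArg Subtype.val (mul_comm' (⟨u, hu⟩ : (P : Subgroup G)) ⟨x, hxP⟩))
  obtain ⟨Q, V, hVn, hVc⟩ := hb x hxP hx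
  haveI := hVn
  set q := Nat.card (P : Subgroup G) with hq
  have hQP : Nat.card (Q : Subgroup C) = q := by
    rw [Nat.card_congr (Q.equiv (P.subtype hPC)).toEquiv]
    exact Nat.card_congr (Subgroup.subgroupOfEquivOfLe hPC).toEquiv
  have hidx : V.index = q := hVc.symm.index_eq_card.trans hQP
  have hVp : ¬ p ∣ Nat.card V := fun hd => Q.not_dvd_index (by rw [hVc.index_eq_card]; exact hd)
  have hmul := V.card_mul_index
  obtain ⟨n0, hn0⟩ := P.2.exists_card_eq
  have hn0' : q = p ^ n0 := hn0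
  set W := V.map C.subtype with hWdef
  have haW : Nat.card W = Nat.card V := card_map_of_injective C.subtype_injective
  have hCa : Nat.card C = Nat.card W * q := by rw [haW, ← hidx, hmul]
  have hW : ∀ w, w ∈ W ↔ w ∈ C ∧ ¬ p ∣ orderOf w := by
    intro w
    refine ⟨?_, ?_⟩
    · rintro ⟨v, hv, rfl⟩
      refine ⟨v.2, fun hd => hVp (hd.trans ?_)⟩
      rw [coe_subtype, orderOf_coe]
      exact orderOf_mk v hv ▸ orderOf_dvd_natCard _
    · rintro ⟨hwC, hwp⟩
      have h1 := V.pow_index_mem ⟨w, hwC⟩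
      rw [hidx, hn0'] at h1
      obtain ⟨m, hm⟩ := exists_pow_eq_self_of_coprime (x := (⟨w, hwC⟩ : C)) (n := p ^ n0)
        (by rw [← orderOf_coe]; exact (hp.out.coprime_iff_not_dvd.2 hwp).pow_left n0)
      exact ⟨⟨w, hwC⟩, hm ▸ V.pow_mem h1 m, rfl⟩
  have hWp : ¬ p ∣ Nat.card W := haW ▸ hVp
  have hWn : ∀ c ∈ C, ∀ v ∈ W, c * v * c⁻¹ ∈ W := fun c hc' v hv =>
    (hW _).2 ⟨mul_mem (mul_mem hc' ((hW v).1 hv).1) (inv_mem hc'), fun h => ((hW v).1 hv).2
      (by rwa [show orderOf (c * v * c⁻¹) = orderOf v from (MulAut.conj c).orderOf_eq v] at h)⟩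
  set Ws := Finset.univ.filter (fun c => c ∈ W) with hWs
  have hord2 : ∀ c ∈ W, orderOf (x * c) = p * orderOf c := fun c hc' => by
    have hcx : Commute x c := (mem_centralizer_singleton_iff.1 ((hW c).1 hc').1).symm
    rw [hcx.orderOf_mul_eq_mul_orderOf_of_coprime (by
      rw [hx, hp.out.coprime_iff_not_dvd]; exact ((hW c).1 hc').2), hx]
  -- `p`-singular elements
  set S := Finset.univ.filter (fun g : G => p ∣ orderOf g) with hS
  have hsec : ∀ F : G → ℂ, (Nat.card C : ℂ) * ∑ g ∈ S, F g =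
      ∑ h : G, ∑ c ∈ Ws, F (h * (x * c) * h⁻¹) := by
    intro F
    set T := (Finset.univ : Finset G) ×ˢ Ws with hT
    set φ : G × G → G := fun t => t.1 * (x * t.2) * t.1⁻¹ with hφ
    have hmaps : ∀ t ∈ T, φ t ∈ S := fun t ht => by
      have h1 : orderOf (φ t) = p * orderOf t.2 := by
        rw [← hord2 _ (Finset.mem_filter.1 (Finset.mem_product.1 ht).2).2]
        exact (MulAut.conj t.1).orderOf_eq _
      simp [hS, h1]
    have hfib : ∀ g ∈ S, (T.filter fun t => φ t = g).card = Nat.card C := by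
      intro g hg
      have hg' := (Finset.mem_filter.1 hg).2
      obtain ⟨h0, c0, hc0, hg0⟩ : ∃ h c, c ∈ W ∧ h * (x * c) * h⁻¹ = g := by
        have hmul' := Element.pPart_mul_pComplPart p g
        set u := Element.pPart p g with hu
        set w := Element.pComplPart p g with hw
        obtain ⟨j, hj⟩ : ∃ j, orderOf u = p ^ j := ⟨_, Element.orderOf_pPart_eq_pow hp.out g⟩
        have hwo : (orderOf w).Coprime p := Element.coprime_orderOf_pComplPart hp.out g
        have hu1 : u ≠ 1 := by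
          intro h
          rw [h, one_mul] at hmul'
          exact hp.out.not_dvd_one ((Nat.dvd_gcd (hmul'.symm ▸ hg') dvd_rfl).trans (dvd_of_eq hwo))
        obtain ⟨S1, hS1⟩ := (IsPGroup.of_card (n := j) (by rw [Nat.card_zpowers, hj]) :
          IsPGroup p ↥(zpowers u)).exists_le_sylow
        obtain ⟨k, hk⟩ := hclass u (hcP S1 u (hS1 (mem_zpowers u)) hu1)
        refine ⟨k, k⁻¹ * w * k, (hW _).2 ⟨?_, ?_⟩, ?_⟩
        · rw [mem_centralizer_singleton_iff]
          have hcm : Commute w u := by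
            obtain ⟨a, ha⟩ := mem_zpowers_iff.1 (Element.pComplPart_mem_zpowers p g)
            obtain ⟨b, hb'⟩ := mem_zpowers_iff.1 (Element.pPart_mem_zpowers p g)
            rw [hu, hw, ← ha, ← hb']
            exact Commute.zpow_zpow_self g a b
          have h2 := (Commute.conj_iff k⁻¹).2 hcm
          rw [← hk, inv_inv, show k⁻¹ * (k * x * k⁻¹) * k = x by group] at h2
          exact h2
        · intro h
          have h3 : orderOf (k⁻¹ * w * k) = orderOf w := by
            have := (MulAut.conj k⁻¹).orderOf_eq w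
            simpa using this
          rw [h3] at h
          exact hp.out.not_dvd_one ((Nat.dvd_gcd h dvd_rfl).trans (dvd_of_eq hwo))
        · rw [show k * (x * (k⁻¹ * w * k)) * k⁻¹ = (k * x * k⁻¹) * w by group, hk, hmul']
      rw [Nat.card_eq_fintype_card, Fintype.card_subtype]
      refine Finset.card_bij' (fun t _ => t.1⁻¹ * h0) (fun n _ => (h0 * n⁻¹, n * c0 * n⁻¹)) ?_ ?_ ?_ ?_
      · intro t ht
        obtain ⟨ht, htg⟩ := Finset.mem_filter.1 ht
        have hc' := (Finset.mem_filter.1 (Finset.mem_product.1 ht).2).2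
        refine Finset.mem_filter.2 ⟨Finset.mem_univ _, mem_centralizer_singleton_iff.2 ?_⟩
        set n := t.1⁻¹ * h0 with hn
        have he : n * (x * c0) * n⁻¹ = x * t.2 := by
          simp only [hφ] at htg
          rw [show x * t.2 = t.1⁻¹ * (t.1 * (x * t.2) * t.1⁻¹) * t.1 by group, htg, ← hg0, hn]
          group
        have key : ∀ c ∈ W, (x * c) ^ Nat.card W = x ^ Nat.card W := fun c hc' => by
          have hcx : Commute x c := (mem_centralizer_singleton_iff.1 ((hW c).1 hc').1).symm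
          have hcK : c ^ Nat.card W = 1 := orderOf_dvd_iff_pow_eq_one.1
            (by rw [← orderOf_mk c hc']; exact orderOf_dvd_natCard _)
          rw [hcx.mul_pow, hcK, mul_one]
        have h1 : n * x ^ Nat.card W * n⁻¹ = x ^ Nat.card W := by
          rw [← key c0 hc0, ← conj_pow, he, key _ hc', key c0 hc0]
        obtain ⟨m, hm⟩ := exists_pow_eq_self_of_coprime (x := x) (n := Nat.card W)
          (by rw [hx, Nat.coprime_comm, hp.out.coprime_iff_not_dvd]; exact hWp)
        have h2 : n * x * n⁻¹ = x := by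
          conv_lhs => rw [← hm]
          rw [← conj_pow, h1, hm]
        exact mul_inv_eq_iff_eq_mul.1 h2
      · intro n hn
        have hn' := (Finset.mem_filter.1 hn).2
        refine Finset.mem_filter.2 ⟨Finset.mem_product.2 ⟨Finset.mem_univ _,
          Finset.mem_filter.2 ⟨Finset.mem_univ _, hWn n hn' c0 hc0⟩⟩, ?_⟩
        simp only [hφ]
        have hnx : n * x = x * n := mem_centralizer_singleton_iff.1 hn'
        rw [← hg0, show h0 * n⁻¹ * (x * (n * c0 * n⁻¹)) * (h0 * n⁻¹)⁻¹ =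
          h0 * n⁻¹ * (x * n) * c0 * h0⁻¹ by group, ← hnx]
        group
      · intro t ht
        obtain ⟨ht, htg⟩ := Finset.mem_filter.1 ht
        have hc' := (Finset.mem_filter.1 (Finset.mem_product.1 ht).2).2
        simp only [hφ] at htg
        refine Prod.ext (by group) ?_
        set n := t.1⁻¹ * h0 with hn
        have he : n * (x * c0) * n⁻¹ = x * t.2 := by
          rw [show x * t.2 = t.1⁻¹ * (t.1 * (x * t.2) * t.1⁻¹) * t.1 by group, htg, ← hg0, hn]
          group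
        have key : ∀ c ∈ W, (x * c) ^ Nat.card W = x ^ Nat.card W := fun c hc' => by
          have hcx : Commute x c := (mem_centralizer_singleton_iff.1 ((hW c).1 hc').1).symm
          have hcK : c ^ Nat.card W = 1 := orderOf_dvd_iff_pow_eq_one.1
            (by rw [← orderOf_mk c hc']; exact orderOf_dvd_natCard _)
          rw [hcx.mul_pow, hcK, mul_one]
        have h1 : n * x ^ Nat.card W * n⁻¹ = x ^ Nat.card W := by
          rw [← key c0 hc0, ← conj_pow, he, key _ hc', key c0 hc0]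
        obtain ⟨m, hm⟩ := exists_pow_eq_self_of_coprime (x := x) (n := Nat.card W)
          (by rw [hx, Nat.coprime_comm, hp.out.coprime_iff_not_dvd]; exact hWp)
        have h2 : n * x * n⁻¹ = x := by
          conv_lhs => rw [← hm]
          rw [← conj_pow, h1, hm]
        show n * c0 * n⁻¹ = t.2
        rw [show n * (x * c0) * n⁻¹ = (n * x * n⁻¹) * (n * c0 * n⁻¹) by group, h2] at he
        exact mul_left_cancel he
      · intro n hn; group
    rw [Finset.mul_sum]
    have h1 : ∑ t ∈ T, F (φ t) = ∑ h : G, ∑ c ∈ Ws, F (h * (x * c) * h⁻¹) := by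
      rw [hT, Finset.sum_product]
    rw [← h1, ← Finset.sum_fiberwise_of_maps_to hmaps]
    refine Finset.sum_congr rfl fun g hg => ?_
    rw [Finset.sum_congr rfl (g := fun _ => F g) (fun t ht => by rw [(Finset.mem_filter.1 ht).2]),
      Finset.sum_const, hfib g hg, nsmul_eq_mul]
  set a : ℂ := (Nat.card W : ℂ) with ha
  set gG : ℂ := (Nat.card G : ℂ) with hg
  have hq0 : (q : ℂ) ≠ 0 := Nat.cast_ne_zero.2 Nat.card_pos.ne'
  have ha0 : a ≠ 0 := Nat.cast_ne_zero.2 Nat.card_pos.ne'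
  have hg0 : gG ≠ 0 := Nat.cast_ne_zero.2 Nat.card_pos.ne'
  have hC0 : (Nat.card C : ℂ) = a * q := by rw [hCa, Nat.cast_mul]
  have hWc : (Ws.card : ℂ) = a := by
    rw [ha, Nat.card_eq_fintype_card, Fintype.card_subtype]
  -- elements of order `p`
  set K := Finset.univ.filter (fun y : G => orderOf y = p) with hK
  have hKsum : ∀ F : G → ℂ, a * q * ∑ y ∈ K, F y = ∑ h : G, F (h * x * h⁻¹) := by
    intro F
    have hKS : K = S.filter fun y => orderOf y = p := by
      ext y
      simp only [hK, hS, Finset.mem_filter, Finset.mem_univ, true_and]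
      exact ⟨fun h => ⟨dvd_of_eq h.symm, h⟩, fun h => h.2⟩
    rw [hKS, Finset.sum_filter, ← hC0, hsec fun y => if orderOf y = p then F y else 0]
    refine Finset.sum_congr rfl fun h _ => ?_
    have hiff : ∀ c ∈ Ws, (orderOf (h * (x * c) * h⁻¹) = p ↔ c = 1) := by
      intro c hc'
      rw [show orderOf (h * (x * c) * h⁻¹) = orderOf (x * c) from (MulAut.conj h).orderOf_eq _,
        hord2 c (Finset.mem_filter.1 hc').2, ← orderOf_eq_one_iff]
      exact ⟨fun he => (Nat.mul_eq_left hp.out.ne_zero).1 he, fun he => by rw [he, mul_one]⟩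
    rw [Finset.sum_eq_single 1]
    · rw [if_pos ((hiff 1 (by simp [hWs])).2 rfl), mul_one]
    · intro c hc' hc1; exact if_neg fun he => hc1 ((hiff c hc').1 he)
    · intro h1; exact absurd (by simp [hWs]) h1
  have hKcard : a * q * (K.card : ℂ) = gG := by
    have := hKsum fun _ => 1
    simp only [Finset.sum_const, nsmul_eq_mul, mul_one] at this
    rw [this, Finset.card_univ, hg, Nat.card_eq_fintype_card]
  -- values of the characters
  obtain ⟨M, hM⟩ := BlkChar.exists_isPModular p hp.out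
  haveI : M.IsPrime := hM.2.1.isPrime
  choose d hd0 hd using fun χ : IrrCharacter G => Char.irr_one_pos χ.2
  haveI : Fintype (P : Subgroup G) := Fintype.ofFinite _
  have hval : ∀ χ : IrrCharacter G, ∃ s m : ℤ, (χ : G → ℂ) x = s ∧
      s * ((q : ℤ) - 1) + d χ = q * m := by
    intro χ
    obtain ⟨m, hm⟩ := Char.isCharacter_classInner_nat
      (Char.isCharacter_restrict (Char.isCharacter_of_irr χ.2) (P : Subgroup G))
      (Char.trivialIrr (P : Subgroup G))
    have hsum : ∑ w : (P : Subgroup G), (χ : G → ℂ) w = (q : ℂ) * m := by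
      rw [← hm, classInner, ← hq, ← mul_assoc, mul_inv_cancel₀ hq0, one_mul]
      exact Finset.sum_congr rfl fun w _ => by
        show _ = _ * conj (1 : ℂ)
        rw [map_one, mul_one]
    have hsplit : ∑ w : (P : Subgroup G), (χ : G → ℂ) w =
        (χ : G → ℂ) 1 + ((q : ℂ) - 1) * (χ : G → ℂ) x := by
      rw [← Finset.add_sum_erase _ _ (Finset.mem_univ (1 : (P : Subgroup G)))]
      congr 1
      rw [Finset.sum_congr rfl (g := fun _ => (χ : G → ℂ) x) (fun w hw => by
        obtain ⟨k, hk⟩ := hconj x hxP w w.2 hx1 fun h =>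
          Finset.ne_of_mem_erase hw (Subtype.ext h)
        rw [← hk]; exact Char.irr_isClassFunction χ.2 _ _), Finset.sum_const,
        Finset.card_erase_of_mem (Finset.mem_univ _), Finset.card_univ, ← Nat.card_eq_fintype_card,
        ← hq, nsmul_eq_mul, Nat.cast_sub Nat.card_pos, Nat.cast_one]
    have hlin : ((q : ℂ) - 1) * (χ : G → ℂ) x + d χ = q * m := by
      rw [← hsum, hsplit, hd χ]; ring
    have hq1 : (q : ℂ) - 1 ≠ 0 := by
      rw [sub_ne_zero]
      intro h
      have h' : q = 1 := by exact_mod_cast h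
      exact hP1 (Subgroup.card_eq_one.1 h')
    have hr : (χ : G → ℂ) x = ((((q : ℚ) * m - d χ) / ((q : ℚ) - 1) : ℚ) : ℂ) := by
      push_cast
      rw [eq_div_iff hq1]
      linear_combination hlin
    obtain ⟨s, hs⟩ := Char.exists_int_of_isIntegral_rat
      (hr ▸ Char.isCharacter_isIntegral (Char.isCharacter_of_irr χ.2) x)
    have hxs : (χ : G → ℂ) x = s := by rw [hr, hs, Rat.cast_intCast]
    refine ⟨s, m, hxs, ?_⟩
    rw [hxs] at hlin
    have h' : ((s * ((q : ℤ) - 1) + d χ : ℤ) : ℂ) = ((q * (m : ℤ) : ℤ) : ℂ) := by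
      push_cast; linear_combination hlin
    exact_mod_cast h'
  choose s m hs hsm using hval
  have htex : ∀ χ : IrrCharacter G, ∃ t : ℤ,
      (∑ c ∈ Ws, (χ : G → ℂ) (x * c) = a * t) ∧ (t = 0 ∨ t = s χ) := by
    intro χ
    by_cases hχ : χ ∈ principalBlock M G
    · refine ⟨s χ, ?_, Or.inr rfl⟩
      have hle : W ≤ centralizer ({x} : Set G) := fun v hv => ((hW v).1 hv).1
      rw [Finset.sum_congr rfl (g := fun _ => (χ : G → ℂ) x) (fun c hc' =>
        Brauer.principalBlock_apply_mul hM (k := 1) (by rw [hx, pow_one]) W hle hWn hWp hχ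
          (Finset.mem_filter.1 hc').2), Finset.sum_const, nsmul_eq_mul, hWc, hs χ]
    · refine ⟨0, ?_, Or.inl rfl⟩
      rw [Int.cast_zero, mul_zero]
      have hb0 : Char.trivialIrr C ∈ principalBlock M C := by
        rw [Brauer.principalBlock_eq_blockOf_trivial]; exact Block.mem_blockOf_self _
      have h := Invol.sectionOrth hM (k := 1) (by rw [hx, pow_one]) C hC χ (Char.trivialIrr C)
        (fun h => hχ (h.2 hb0))
      rw [Finset.sum_ite, Finset.sum_const_zero, zero_add] at h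
      rw [← h]
      refine Finset.sum_bij (fun c hc' => (⟨c, ((hW c).1 (Finset.mem_filter.1 hc').2).1⟩ : C)) ?_ ?_ ?_ ?_
      · intro c hc'
        refine Finset.mem_filter.2 ⟨Finset.mem_univ _, ?_⟩
        rw [← orderOf_coe]
        exact ((hW c).1 (Finset.mem_filter.1 hc').2).2
      · intro c _ c' _ he; exact congrArg Subtype.val he
      · intro v hv
        refine ⟨v, Finset.mem_filter.2 ⟨Finset.mem_univ _, (hW _).2 ⟨v.2, ?_⟩⟩, rfl⟩
        rw [orderOf_coe]; exact (Finset.mem_filter.1 hv).2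
      · intro c _
        show _ = _ * conj (1 : ℂ)
        rw [map_one, mul_one]
  choose t ht1 ht2 using htex
  -- the class function
  set f : G → ℂ := fun y => if y ∈ S then 1 else 0 with hf
  have hfc : IsClassFunction G f := fun y h => by
    simp only [hf, hS, Finset.mem_filter, Finset.mem_univ, true_and]
    rw [show orderOf (h * y * h⁻¹) = orderOf y from (MulAut.conj h).orderOf_eq y]
  have hScard : a * q * (S.card : ℂ) = gG * a := by
    have := hsec fun _ => 1
    simp only [Finset.sum_const, nsmul_eq_mul, mul_one] at this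
    rw [← hC0, this, hWc, Finset.card_univ, hg, Nat.card_eq_fintype_card]
  have hcoef : ∀ χ : IrrCharacter G, classInner f (χ : G → ℂ) = (t χ : ℂ) / q := by
    intro χ
    have h1 : ∑ y : G, f y * conj ((χ : G → ℂ) y) = ∑ y ∈ S, conj ((χ : G → ℂ) y) := by
      simp only [hf, ite_mul, one_mul, zero_mul, Finset.sum_ite_mem, Finset.univ_inter]
    have h2 := hsec fun y => conj ((χ : G → ℂ) y)
    have h3 : ∀ h : G, ∑ c ∈ Ws, conj ((χ : G → ℂ) (h * (x * c) * h⁻¹)) = a * t χ := by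
      intro h
      simp only [Char.irr_isClassFunction χ.2 _ h]
      simp only [← map_sum, ht1 χ, map_mul, ha, map_natCast, map_intCast]
    rw [Finset.sum_congr rfl (fun h _ => h3 h), Finset.sum_const, Finset.card_univ, nsmul_eq_mul,
      ← Nat.card_eq_fintype_card, ← hg, hC0] at h2
    rw [classInner, h1, ← hg, eq_div_iff hq0]
    apply mul_left_cancel₀ ha0
    calc a * (gG⁻¹ * (∑ y ∈ S, conj ((χ : G → ℂ) y)) * q)
        = gG⁻¹ * (a * q * ∑ y ∈ S, conj ((χ : G → ℂ) y)) := by ring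
      _ = gG⁻¹ * (gG * (a * t χ)) := by rw [h2]
      _ = a * t χ := by rw [← mul_assoc, inv_mul_cancel₀ hg0, one_mul]
  have hexp : ∀ y, f y = ∑ χ : IrrCharacter G, (t χ : ℂ) / q * (χ : G → ℂ) y := by
    intro y
    conv_lhs => rw [Char.eq_sum_classInner_smul hfc]
    simp only [Finset.sum_apply, Pi.smul_apply, smul_eq_mul, hcoef]
  have hI1 : ∑ χ : IrrCharacter G, (t χ : ℂ) * (d χ : ℂ) = 0 := by
    have h1 := hexp 1
    have hf1 : f 1 = 0 := by simp [hf, hS, hp.out.not_dvd_one]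
    rw [hf1] at h1
    have h2 : (q : ℂ)⁻¹ * ∑ χ : IrrCharacter G, (t χ : ℂ) * (d χ : ℂ) = 0 := by
      rw [Finset.mul_sum, h1]
      exact Finset.sum_congr rfl fun χ _ => by rw [hd χ]; ring
    exact (mul_eq_zero.1 h2).resolve_left (inv_ne_zero hq0)
  have hI2 : ∑ χ : IrrCharacter G, (t χ : ℂ) ^ 2 = q := by
    have h1 := Char.classInner_eq_sum_mul_conj (b := f) hfc
    simp only [hcoef, map_div₀, map_natCast, map_intCast] at h1
    have h2 : classInner f f = gG⁻¹ * S.card := by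
      rw [classInner, ← hg]
      congr 1
      rw [Finset.sum_congr rfl (g := fun y => if y ∈ S then (1 : ℂ) else 0) (fun y _ => by
        simp only [hf]; split_ifs <;> simp), Finset.sum_ite_mem, Finset.univ_inter, Finset.sum_const,
        nsmul_eq_mul, mul_one]
    rw [h2] at h1
    have h3 : ∑ χ : IrrCharacter G, (t χ : ℂ) ^ 2 =
        (q : ℂ) ^ 2 * ∑ χ : IrrCharacter G, (t χ : ℂ) / q * ((t χ : ℂ) / q) := by
      rw [Finset.mul_sum]
      exact Finset.sum_congr rfl fun χ _ => by field_simp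
    rw [h3, ← h1]
    field_simp
    apply mul_left_cancel₀ ha0
    linear_combination hScard
  -- counting products
  set R := Finset.univ.filter fun y : G => orderOf y = p ∧ ¬ p ∣ orderOf (x * y) with hR
  have hRK := card_regular_le hab hc hx
  rw [← hR, ← hK] at hRK
  have hI3 : (K.card : ℂ) * ∑ χ : IrrCharacter G, (t χ : ℂ) ^ 3 / (d χ : ℂ) =
      q * ((K.card : ℂ) - R.card) := by
    have h1 : ∀ χ : IrrCharacter G, a * q * ∑ y ∈ K, (χ : G → ℂ) (x * y) =
        gG * (χ : G → ℂ) x ^ 2 / (χ : G → ℂ) 1 := by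
      intro χ
      rw [hKsum, BlocksChar.sum_conj_mul χ.2 x x, hg]
      ring
    have h2 : ∑ y ∈ K, f (x * y) = (K.card : ℂ) - R.card := by
      have hR' : R = K.filter fun y => ¬ p ∣ orderOf (x * y) := by
        ext y; simp [hR, hK]
      have h4 : ∀ y ∈ K, f (x * y) = 1 - (if ¬ p ∣ orderOf (x * y) then (1 : ℂ) else 0) := by
        intro y hy
        by_cases hd' : p ∣ orderOf (x * y) <;> simp [hf, hS, hd']
      rw [Finset.sum_congr rfl h4, Finset.sum_sub_distrib, Finset.sum_const, nsmul_eq_mul, mul_one,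
        hR', Finset.sum_boole]
    have h3 : a * q * ∑ y ∈ K, f (x * y) =
        gG / q * ∑ χ : IrrCharacter G, (t χ : ℂ) ^ 3 / (d χ : ℂ) := by
      simp only [hexp]
      rw [Finset.sum_comm, Finset.mul_sum, Finset.mul_sum]
      refine Finset.sum_congr rfl fun χ _ => ?_
      rw [← Finset.mul_sum, show a * q * ((t χ : ℂ) / q * ∑ y ∈ K, (χ : G → ℂ) (x * y)) =
        (t χ : ℂ) / q * (a * q * ∑ y ∈ K, (χ : G → ℂ) (x * y)) by ring, h1 χ, hd χ, hs χ]
      rcases ht2 χ with h | h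
      · rw [h]; simp
      · rw [← h]; ring
    rw [h2] at h3
    apply mul_left_cancel₀ (mul_ne_zero ha0 hq0)
    have h5 : a * q * ((K.card : ℂ) * ∑ χ : IrrCharacter G, (t χ : ℂ) ^ 3 / (d χ : ℂ)) =
        gG * ∑ χ : IrrCharacter G, (t χ : ℂ) ^ 3 / (d χ : ℂ) := by rw [← mul_assoc, hKcard]
    have h6 : gG * ∑ χ : IrrCharacter G, (t χ : ℂ) ^ 3 / (d χ : ℂ) =
        q * (a * q * ((K.card : ℂ) - R.card)) := by
      rw [h3, ← mul_assoc, mul_div_cancel₀ _ hq0]
    rw [h5, h6]; ring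
  set τ := Char.trivialIrr G with hτ
  have hdτ : d τ = 1 := by
    have := hd τ
    rw [show (τ : G → ℂ) 1 = 1 from rfl] at this
    exact_mod_cast this.symm
  have htτ : t τ = 1 := by
    have := ht1 τ
    simp only [show ∀ g : G, (τ : G → ℂ) g = 1 from fun _ => rfl, Finset.sum_const, nsmul_eq_mul,
      mul_one, hWc] at this
    have h' : ((t τ : ℤ) : ℂ) = ((1 : ℤ) : ℂ) := by
      apply mul_left_cancel₀ ha0
      rw [← this]; simp
    exact_mod_cast h'
  set O := Finset.univ.erase τ with hO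
  have hJ1 : ∑ χ ∈ O, t χ * (d χ : ℤ) = -1 := by
    have h : ((∑ χ ∈ O, t χ * (d χ : ℤ) : ℤ) : ℂ) = ((-1 : ℤ) : ℂ) := by
      push_cast
      rw [hO, Finset.sum_erase_eq_sub (Finset.mem_univ τ), hI1, htτ, hdτ]
      push_cast; ring
    exact_mod_cast h
  have hJ2 : ∑ χ ∈ O, t χ ^ 2 = (q : ℤ) - 1 := by
    have h : ((∑ χ ∈ O, t χ ^ 2 : ℤ) : ℂ) = (((q : ℤ) - 1 : ℤ) : ℂ) := by
      push_cast
      rw [hO, Finset.sum_erase_eq_sub (Finset.mem_univ τ), hI2, htτ]
      push_cast; ring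
    exact_mod_cast h
  have hJ3 : (K.card : ℝ) * (∑ χ ∈ O, (t χ : ℝ) ^ 3 / (d χ : ℝ) + 1) =
      q * ((K.card : ℝ) - R.card) := by
    have h : (((K.card : ℝ) * (∑ χ ∈ O, (t χ : ℝ) ^ 3 / (d χ : ℝ) + 1) : ℝ) : ℂ) =
        (((q : ℝ) * ((K.card : ℝ) - R.card) : ℝ) : ℂ) := by
      push_cast
      rw [hO, Finset.sum_erase_eq_sub (Finset.mem_univ τ), htτ, hdτ, ← hI3]
      push_cast; ring
    exact_mod_cast h
  have hn1 : n0 ≠ 0 := by
    rintro rfl
    rw [pow_zero] at hn0'
    exact hP1 (Subgroup.card_eq_one.1 hn0')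
  have hqp : p ≤ q := hn0' ▸ Nat.le_self_pow hn1 p
  have hqR : (3 : ℝ) ≤ q := by exact_mod_cast le_trans hp3 hqp
  have hpR : (3 : ℝ) ≤ p := by exact_mod_cast hp3
  have hKpos : 0 < (K.card : ℝ) :=
    Nat.cast_pos.2 (Finset.card_pos.2 ⟨x, Finset.mem_filter.2 ⟨Finset.mem_univ _, hx⟩⟩)
  have hRKr : ((p : ℝ) - 1) * R.card ≤ K.card := by
    have h : (((p - 1) * R.card : ℕ) : ℝ) ≤ (K.card : ℝ) := Nat.cast_le.2 hRK
    rwa [Nat.cast_mul, Nat.cast_sub hp.out.one_le, Nat.cast_one] at h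
  set B : ℝ := (q : ℝ) * ((p : ℝ) - 2) - ((p : ℝ) - 1) with hB
  have hlow : B ≤ ((p : ℝ) - 1) * ∑ χ ∈ O, (t χ : ℝ) ^ 3 / (d χ : ℝ) := by
    refine le_of_mul_le_mul_left ?_ hKpos
    have h1 : (q : ℝ) * (((p : ℝ) - 1) * R.card) ≤ (q : ℝ) * K.card :=
      mul_le_mul_of_nonneg_left hRKr (by linarith)
    have h2 : ((p : ℝ) - 1) * ((K.card : ℝ) * (∑ χ ∈ O, (t χ : ℝ) ^ 3 / (d χ : ℝ) + 1)) =
        ((p : ℝ) - 1) * ((q : ℝ) * ((K.card : ℝ) - R.card)) := by rw [hJ3]
    rw [hB]; linarith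
  have hB0 : 0 < B := by
    have := mul_le_mul hqR (show (1 : ℝ) ≤ (p : ℝ) - 2 by linarith) (by norm_num) (by linarith)
    rw [hB]
    nlinarith
  have hterm : ∀ χ ∈ O, ((p : ℝ) - 1) * ((q : ℝ) - 1) * ((t χ : ℝ) ^ 3 / d χ) ≤ B * (t χ : ℝ) ^ 2 := by
    intro χ hχ
    have hd' : (0 : ℝ) < d χ := by exact_mod_cast hd0 χ
    rw [mul_div_assoc', div_le_iff₀ hd']
    rcases le_or_gt (t χ) 0 with h0 | h0
    · have h1 : (t χ : ℝ) ≤ 0 := by exact_mod_cast h0
      have h2 : ((p : ℝ) - 1) * ((q : ℝ) - 1) * (t χ : ℝ) ^ 3 ≤ 0 := by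
        rw [pow_succ, ← mul_assoc]
        exact mul_nonpos_of_nonneg_of_nonpos
          (mul_nonneg (mul_nonneg (by linarith) (by linarith)) (sq_nonneg _)) h1
      have h3 : 0 ≤ B * (t χ : ℝ) ^ 2 * d χ := by positivity
      linarith
    -- `t = s` and `d ≥ t + q`
    have hts : t χ = s χ := (ht2 χ).resolve_left h0.ne'
    have hle : t χ ^ 2 ≤ (q : ℤ) - 1 := hJ2 ▸ Finset.single_le_sum (fun ψ _ => sq_nonneg (t ψ)) hχ
    have hlt : s χ < (d χ : ℤ) := by
      obtain ⟨k, ρ, -, hρ⟩ := χ.2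
      have hnorm := Char.norm_character_le ρ x
      rw [hρ, hs χ, Module.finrank_fin_fun, Complex.norm_intCast] at hnorm
      have hk : (d χ : ℂ) = k := by rw [← hd χ, ← hρ, ρ.char_one, Module.finrank_fin_fun]
      have hk' : d χ = k := by exact_mod_cast hk
      have h1 : |s χ| ≤ (k : ℤ) := by exact_mod_cast hnorm
      rcases lt_or_eq_of_le (show s χ ≤ (d χ : ℤ) by rw [hk']; exact (le_abs_self _).trans h1) with h | h
      · exact h
      exact absurd (eq_trivial_of_value hx1 χ (by rw [hs χ, h, hd χ, Int.cast_natCast]))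
        (Finset.ne_of_mem_erase hχ)
    have hdq : (q : ℤ) + t χ ≤ d χ := by
      rw [hts]
      have h1 : (q : ℤ) * (m χ - s χ) = (d χ : ℤ) - s χ := by
        have := hsm χ; linear_combination -this
      have h2 : 0 < m χ - s χ := pos_of_mul_pos_right (a := (q : ℤ)) (by rw [h1]; omega) (by positivity)
      have h3 : (q : ℤ) * 1 ≤ (q : ℤ) * (m χ - s χ) := mul_le_mul_of_nonneg_left (by omega) (by positivity)
      omega
    have htq : (t χ : ℤ) ≤ (q : ℤ) - 2 := by
      have hq3 : (3 : ℤ) ≤ q := by exact_mod_cast le_trans hp3 hqp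
      by_contra h
      have h' : (q : ℤ) - 1 ≤ t χ := by omega
      nlinarith
    have h1 : ((q : ℝ) + t χ) ≤ d χ := by exact_mod_cast hdq
    have h2 : (t χ : ℝ) ≤ (q : ℝ) - 2 := by exact_mod_cast htq
    have h3 : (0 : ℝ) < t χ := by exact_mod_cast h0
    have key : ((p : ℝ) - 1) * ((q : ℝ) - 1) * t χ ≤ B * ((q : ℝ) + t χ) := by
      have e1 : B * ((q : ℝ) + t χ) - ((p : ℝ) - 1) * ((q : ℝ) - 1) * t χ =
          (q : ℝ) * ((q : ℝ) * ((p : ℝ) - 2) - ((p : ℝ) - 1) - t χ) := by rw [hB]; ring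
      have e2 : (0 : ℝ) ≤ (q : ℝ) * ((q : ℝ) * ((p : ℝ) - 2) - ((p : ℝ) - 1) - t χ) := by
        refine mul_nonneg (by linarith) ?_
        have : (0 : ℝ) ≤ ((q : ℝ) - 1) * ((p : ℝ) - 3) := mul_nonneg (by linarith) (by linarith)
        nlinarith
      linarith
    calc ((p : ℝ) - 1) * ((q : ℝ) - 1) * (t χ : ℝ) ^ 3
        = ((p : ℝ) - 1) * ((q : ℝ) - 1) * t χ * (t χ : ℝ) ^ 2 := by ring
      _ ≤ B * ((q : ℝ) + t χ) * (t χ : ℝ) ^ 2 := mul_le_mul_of_nonneg_right key (sq_nonneg _)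
      _ ≤ B * d χ * (t χ : ℝ) ^ 2 :=
        mul_le_mul_of_nonneg_right (mul_le_mul_of_nonneg_left h1 hB0.le) (sq_nonneg _)
      _ = B * (t χ : ℝ) ^ 2 * d χ := by ring
  obtain ⟨ψ, hψ, hneg⟩ : ∃ ψ ∈ O, t ψ < 0 := by
    by_contra hall
    push_neg at hall
    have := Finset.sum_nonneg fun ψ hψ => mul_nonneg (hall ψ hψ) (Int.natCast_nonneg (d ψ))
    rw [hJ1] at this
    norm_num at this
  have hstrict : ((p : ℝ) - 1) * ((q : ℝ) - 1) * ((t ψ : ℝ) ^ 3 / d ψ) < B * (t ψ : ℝ) ^ 2 := by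
    have h1 : (t ψ : ℝ) < 0 := by exact_mod_cast hneg
    have hd' : (0 : ℝ) < d ψ := by exact_mod_cast hd0 ψ
    have h2 : 0 < (t ψ : ℝ) ^ 2 := sq_pos_of_ne_zero h1.ne
    have h3 : (t ψ : ℝ) ^ 3 / d ψ < 0 := div_neg_of_neg_of_pos (by
      rw [pow_succ]; exact mul_neg_of_pos_of_neg h2 h1) hd'
    have h4 : 0 < ((p : ℝ) - 1) * ((q : ℝ) - 1) := mul_pos (by linarith) (by linarith)
    have h5 := mul_neg_of_pos_of_neg h4 h3
    have h6 : 0 < B * (t ψ : ℝ) ^ 2 := mul_pos hB0 h2
    linarith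
  have hsum := Finset.sum_lt_sum hterm ⟨ψ, hψ, hstrict⟩
  rw [← Finset.mul_sum, ← Finset.mul_sum] at hsum
  have hJ2r : ∑ χ ∈ O, (t χ : ℝ) ^ 2 = (q : ℝ) - 1 := by exact_mod_cast hJ2
  rw [hJ2r] at hsum
  have h9 := mul_le_mul_of_nonneg_left hlow (show (0 : ℝ) ≤ (q : ℝ) - 1 by linarith)
  linarith

end Cfsg.Agent.CycPairs
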