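import Mathlib
import Cfsg.Agent.CycPairs.Galois
import Cfsg.Agent.Char.Integrality

/-!
# No nonabelian simple group with cyclic Sylow `p`-subgroup has all pairs `p`-solvable
-/

set_option autoImplicit false
set_option linter.unusedSectionVars false
set_option linter.style.haveILetI false

namespace Cfsg.Agent.CycPairs

open Subgroup Cfsg

theorem term_five {p q e d : ℕ} {t : ℤ} (hp : 5 ≤ p) (hq : p ≤ q) (he2 : 2 ≤ e) (hed : e ≤ d)
    (ht : (q : ℤ) * t ^ 2 ≤ (p : ℤ) * d * ((e * q : ℕ) - ((p : ℤ) - 1))) :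
    (t : ℝ) * ((e * q : ℕ) - ((p : ℝ) - 1)) <
      (d : ℝ) * (((p : ℝ) - 2) * (e * q : ℕ) - ((p : ℝ) - 1) ^ 2) := by
  have hp' : (5 : ℝ) ≤ p := by exact_mod_cast hp
  have hq' : (p : ℝ) ≤ q := by exact_mod_cast hq
  have he' : (2 : ℝ) ≤ e := by exact_mod_cast he2
  have hd' : (e : ℝ) ≤ d := by exact_mod_cast hed
  have ht' : (q : ℝ) * (t : ℝ) ^ 2 ≤ (p : ℝ) * d * (((e * q : ℕ) : ℝ) - ((p : ℝ) - 1)) := by
    exact_mod_cast ht
  push_cast at ht' ⊢
  set L : ℝ := (e : ℝ) * q - ((p : ℝ) - 1) with hL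
  have hL1 : (p : ℝ) + 1 ≤ L := by
    have := mul_le_mul he' hq' (by linarith) (by linarith)
    rw [hL]; linarith
  have hp0 : (0 : ℝ) < p := by linarith
  have hd0 : (0 : ℝ) < d := by linarith
  have hq0 : (0 : ℝ) < q := by linarith
  -- `t² < p d²`
  have htd : (t : ℝ) ^ 2 < (p : ℝ) * d ^ 2 := by
    have h1 : (p : ℝ) * d * L < (p : ℝ) * d * ((e : ℝ) * q) :=
      mul_lt_mul_of_pos_left (by rw [hL]; linarith) (mul_pos hp0 hd0)
    have h2 : (p : ℝ) * d * q * e ≤ (p : ℝ) * d * q * d :=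
      mul_le_mul_of_nonneg_left hd' (by positivity)
    refine lt_of_mul_lt_mul_left ?_ hq0.le
    calc (q : ℝ) * (t : ℝ) ^ 2 ≤ (p : ℝ) * d * L := ht'
      _ < (p : ℝ) * d * ((e : ℝ) * q) := h1
      _ = (p : ℝ) * d * q * e := by ring
      _ ≤ (p : ℝ) * d * q * d := h2
      _ = (q : ℝ) * ((p : ℝ) * d ^ 2) := by ring
  set R : ℝ := ((p : ℝ) - 2) * L - ((p : ℝ) - 1) with hR
  have hRe : ((p : ℝ) - 2) * ((e : ℝ) * q) - ((p : ℝ) - 1) ^ 2 = R := by rw [hR, hL]; ring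
  rw [hRe]
  -- `p L² ≤ R²`
  have hR1 : ((p : ℝ) ^ 2 - 2 * p - 1) * L ≤ R * ((p : ℝ) + 1) := by
    have h := mul_nonneg (show (0 : ℝ) ≤ (p : ℝ) - 1 by linarith) (show (0 : ℝ) ≤ L - p - 1 by linarith)
    have e1 : R * ((p : ℝ) + 1) - ((p : ℝ) ^ 2 - 2 * p - 1) * L = ((p : ℝ) - 1) * (L - p - 1) := by
      rw [hR]; ring
    linarith
  have h25 : (25 : ℝ) ≤ (p : ℝ) * p := by nlinarith
  have h5p : 5 * (p : ℝ) ≤ (p : ℝ) * p := mul_le_mul_of_nonneg_right hp' hp0.le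
  have hc : (0 : ℝ) ≤ (p : ℝ) ^ 2 - 2 * p - 1 := by rw [sq]; linarith
  have hsq : (p : ℝ) * ((p : ℝ) + 1) ^ 2 ≤ ((p : ℝ) ^ 2 - 2 * p - 1) ^ 2 := by
    have e1 : ((p : ℝ) ^ 2 - 2 * p - 1) ^ 2 - (p : ℝ) * ((p : ℝ) + 1) ^ 2 =
        (p : ℝ) * p * p * ((p : ℝ) - 5) + 3 * p + 1 := by ring
    have h0 : (0 : ℝ) ≤ (p : ℝ) * p * p * ((p : ℝ) - 5) := mul_nonneg (by positivity) (by linarith)
    linarith
  have hA : 0 ≤ ((p : ℝ) ^ 2 - 2 * p - 1) * L := mul_nonneg hc (by linarith)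
  have hR0 : 0 ≤ R := nonneg_of_mul_nonneg_left (hA.trans hR1) (by linarith)
  have hR2 : (p : ℝ) * L ^ 2 ≤ R ^ 2 := by
    refine le_of_mul_le_mul_right ?_ (show (0 : ℝ) < ((p : ℝ) + 1) ^ 2 by positivity)
    calc (p : ℝ) * L ^ 2 * ((p : ℝ) + 1) ^ 2 = (p : ℝ) * ((p : ℝ) + 1) ^ 2 * L ^ 2 := by ring
      _ ≤ ((p : ℝ) ^ 2 - 2 * p - 1) ^ 2 * L ^ 2 := mul_le_mul_of_nonneg_right hsq (sq_nonneg L)
      _ = (((p : ℝ) ^ 2 - 2 * p - 1) * L) ^ 2 := by ring
      _ ≤ (R * ((p : ℝ) + 1)) ^ 2 := pow_le_pow_left₀ hA hR1 2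
      _ = R ^ 2 * ((p : ℝ) + 1) ^ 2 := by ring
  have h3 : ((t : ℝ) * L) ^ 2 < ((d : ℝ) * R) ^ 2 := by
    calc ((t : ℝ) * L) ^ 2 = (t : ℝ) ^ 2 * L ^ 2 := by ring
      _ < (p : ℝ) * d ^ 2 * L ^ 2 := mul_lt_mul_of_pos_right htd (pow_pos (by linarith) 2)
      _ = (d : ℝ) ^ 2 * ((p : ℝ) * L ^ 2) := by ring
      _ ≤ (d : ℝ) ^ 2 * R ^ 2 := mul_le_mul_of_nonneg_left hR2 (sq_nonneg _)
      _ = ((d : ℝ) * R) ^ 2 := by ring
  exact lt_of_pow_lt_pow_left₀ 2 (mul_nonneg hd0.le hR0) h3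

theorem term_three {q d : ℕ} {s : ℤ} (hq : 9 ≤ q) (hd : 2 ≤ d) (hs : (3 : ℤ) ∣ (d : ℤ) - s)
    (hlt : s < d) (h : 2 * (q : ℤ) * s ^ 2 ≤ 3 * d * ((q : ℤ) - 1)) :
    2 * (s : ℝ) * ((q : ℝ) - 1) < (d : ℝ) * ((q : ℝ) - 2) := by
  have hq' : (9 : ℝ) ≤ q := by exact_mod_cast hq
  have hd' : (2 : ℝ) ≤ d := by exact_mod_cast hd
  rcases le_or_gt s 0 with hs0 | hs0
  · have : (s : ℝ) ≤ 0 := by exact_mod_cast hs0
    nlinarith
  have hkey : 16 * s < 7 * (d : ℤ) := by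
    have h1 : 2 * s ^ 2 < 3 * (d : ℤ) := by nlinarith
    rcases le_or_gt 8 d with hd8 | hd8
    · have : (8 : ℤ) ≤ d := by exact_mod_cast hd8
      nlinarith
    · have : s ≤ 7 := by omega
      interval_cases d <;> interval_cases s <;> omega
  have hk : 16 * (s : ℝ) < 7 * (d : ℝ) := by exact_mod_cast hkey
  have hs1 : (0 : ℝ) < s := by exact_mod_cast hs0
  nlinarith

universe u

variable {G : Type u} [Group G] [Fintype G] {p : ℕ} [hp : Fact p.Prime]

theorem card_orb_mul {x : G} :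
    Nat.card (normalizer (zpowers x : Set G)) =
      (orb x).card * Nat.card (centralizer ({x} : Set G)) := by
  classical
  set N := normalizer (zpowers x : Set G) with hN
  set C := centralizer ({x} : Set G) with hC
  have hCN : ∀ c ∈ C, c ∈ N := by
    intro c hc
    rw [hN, mem_normalizer_iff_map_conj_eq, MonoidHom.map_zpowers]
    show zpowers (c * x * c⁻¹) = zpowers x
    rw [mem_centralizer_singleton_iff.1 hc, mul_inv_cancel_right]
  rw [Nat.card_eq_fintype_card, Fintype.card_subtype, Nat.card_eq_fintype_card, Fintype.card_subtype]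
  have hmem : ∀ n ∈ Finset.univ.filter (fun n => n ∈ N), n * x * n⁻¹ ∈ orb x := fun n hn =>
    Finset.mem_filter.2 ⟨Finset.mem_univ _, n, (Finset.mem_filter.1 hn).2, rfl⟩
  rw [Finset.card_eq_sum_card_fiberwise hmem]
  refine Finset.sum_const_nat fun o ho => ?_
  obtain ⟨n0, hn0, rfl⟩ : ∃ n ∈ N, n * x * n⁻¹ = o := by simpa [orb] using ho
  refine Finset.card_bij' (fun n _ => n0⁻¹ * n) (fun c _ => n0 * c) ?_ ?_ ?_ ?_
  · intro n hn
    obtain ⟨-, he⟩ := Finset.mem_filter.1 hn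
    refine Finset.mem_filter.2 ⟨Finset.mem_univ _, mem_centralizer_singleton_iff.2 ?_⟩
    calc n0⁻¹ * n * x = n0⁻¹ * (n * x * n⁻¹) * n := by group
      _ = n0⁻¹ * (n0 * x * n0⁻¹) * n := by rw [he]
      _ = x * (n0⁻¹ * n) := by group
  · intro c hc
    have hc' := (Finset.mem_filter.1 hc).2
    refine Finset.mem_filter.2 ⟨Finset.mem_filter.2 ⟨Finset.mem_univ _, mul_mem hn0 (hCN c hc')⟩, ?_⟩
    rw [mul_inv_rev, show n0 * c * x * (c⁻¹ * n0⁻¹) = n0 * (c * x * c⁻¹) * n0⁻¹ by group,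
      mem_centralizer_singleton_iff.1 hc', mul_inv_cancel_right]
  · intro n _; group
  · intro c _; group

theorem orb_subset {x : G} (hx1 : x ≠ 1) : orb x ⊆ genSet x := by
  classical
  intro o ho
  obtain ⟨n, hn, rfl⟩ : ∃ n ∈ normalizer (zpowers x : Set G), n * x * n⁻¹ = o := by
    simpa [orb] using ho
  exact mem_genSet.2 ⟨(mem_normalizer_iff.1 hn x).1 (mem_zpowers x), by simpa [mul_inv_eq_one] using hx1⟩

theorem two_le_orb [IsSimpleGroup G] (hperf : commutator G = ⊤)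
    (hcyc : ∀ S : Sylow p G, IsCyclic (S : Subgroup G)) {x : G} (hx : orderOf x = p) (P : Sylow p G)
    (hxP : x ∈ (P : Subgroup G)) {W : Subgroup G}
    (hW : ∀ w, w ∈ W ↔ w ∈ centralizer ({x} : Set G) ∧ ¬ p ∣ orderOf w)
    (hWp : (Nat.card W).Coprime p)
    (hC : Nat.card (centralizer ({x} : Set G)) = Nat.card W * Nat.card (P : Subgroup G)) :
    2 ≤ (orb x).card := by
  classical
  haveI := hcyc P
  have hpG : p ∣ Nat.card G := hx ▸ orderOf_dvd_natCard x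
  by_contra hlt
  have hxo : x ∈ orb x := Finset.mem_filter.2 ⟨Finset.mem_univ _, 1, one_mem _, by group⟩
  have hcom : ∀ a ∈ (P : Subgroup G), ∀ b ∈ (P : Subgroup G), a * b = b * a := fun a ha b hb => by
    letI : CommGroup ↥(P : Subgroup G) := IsCyclic.commGroup
    exact congrArg Subtype.val (mul_comm (⟨a, ha⟩ : ↥(P : Subgroup G)) ⟨b, hb⟩)
  apply FGS4.not_hasNormalPComplement_of_perfect hperf hpG
  refine Transfer.hasNormalPComplement_of_normalizer_le_centralizer P fun n hn => ?_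
  -- `N(P) ≤ C(x)`
  set C := centralizer ({x} : Set G) with hCdef
  have hnC : n ∈ C := by
    have hnx : n * x * n⁻¹ ∈ zpowers x := FGS4.mem_zpowers_of_commute P (hcyc P)
      (by rw [conj_pow, ← hx, pow_orderOf_eq_one, mul_one, mul_inv_cancel]) hx
      (hcom _ ((mem_normalizer_iff.1 hn x).1 hxP) x hxP)
    have hnN : n ∈ normalizer (zpowers x : Set G) := by
      rw [mem_normalizer_iff_map_conj_eq, MonoidHom.map_zpowers]
      show zpowers (n * x * n⁻¹) = zpowers x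
      refine eq_of_le_of_card_ge (zpowers_le.2 hnx) (le_of_eq ?_)
      rw [Nat.card_zpowers, Nat.card_zpowers,
        show orderOf (n * x * n⁻¹) = orderOf x from (MulAut.conj n).orderOf_eq x]
    have ho : n * x * n⁻¹ ∈ orb x := Finset.mem_filter.2 ⟨Finset.mem_univ _, n, hnN, rfl⟩
    have := Finset.card_le_one.1 (Nat.le_of_lt_succ (not_le.1 hlt)) _ ho _ hxo
    exact mem_centralizer_singleton_iff.2 (mul_inv_eq_iff_eq_mul.1 this)
  -- write `n = w u`
  have hPC : (P : Subgroup G) ≤ C := fun a ha => mem_centralizer_singleton_iff.2 (hcom a ha x hxP)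
  have hWC : W ≤ C := fun w hw => ((hW w).1 hw).1
  have hdisj : Disjoint (W.subgroupOf C) ((P : Subgroup G).subgroupOf C) := by
    rw [Subgroup.disjoint_def]
    intro a ha ha'
    obtain ⟨k, hk⟩ := P.2 ⟨(a : G), ha'⟩
    have h1 : (a : G) ^ p ^ k = 1 := congrArg Subtype.val hk
    have h3 : orderOf (a : G) ∣ Nat.card W := orderOf_mk (a : G) ha ▸ orderOf_dvd_natCard _
    exact Subtype.ext (orderOf_eq_one_iff.1 (Nat.eq_one_of_dvd_one
      ((Nat.dvd_gcd h3 (orderOf_dvd_of_pow_eq_one h1)).trans (dvd_of_eq (hWp.pow_right k)))))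
  have hcompl : IsComplement' (W.subgroupOf C) ((P : Subgroup G).subgroupOf C) := by
    refine isComplement'_of_disjoint_and_mul_eq_univ hdisj ?_
    have := isComplement'_of_card_mul_and_disjoint (by
      rw [Nat.card_congr (Subgroup.subgroupOfEquivOfLe hWC).toEquiv,
        Nat.card_congr (Subgroup.subgroupOfEquivOfLe hPC).toEquiv, hC]) hdisj
    exact this.mul_eq
  obtain ⟨⟨⟨w, hw⟩, ⟨u, hu⟩⟩, he⟩ := hcompl.existsUnique (⟨n, hnC⟩ : C) |>.exists
  have he' : (w : G) * (u : G) = n := congrArg Subtype.val he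
  have hwN : (w : G) ∈ normalizer ((P : Subgroup G) : Set G) := by
    rw [show (w : G) = n * (u : G)⁻¹ by rw [← he', mul_inv_cancel_right]]
    exact mul_mem hn (le_normalizer (inv_mem hu))
  rw [mem_centralizer_iff]
  intro z hz
  have hzC := hPC hz
  have hconj : z * (w : G) * z⁻¹ ∈ W := by
    refine (hW _).2 ⟨mul_mem (mul_mem hzC ((hW _).1 hw).1) (inv_mem hzC), fun h => ((hW _).1 hw).2 ?_⟩
    rwa [show orderOf (z * (w : G) * z⁻¹) = orderOf (w : G) from (MulAut.conj z).orderOf_eq _] at h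
  have hwz : (w : G) * z * (w : G)⁻¹ * z⁻¹ ∈ W := by
    rw [show (w : G) * z * (w : G)⁻¹ * z⁻¹ = (w : G) * (z * (w : G) * z⁻¹)⁻¹ by group]
    exact mul_mem hw (inv_mem hconj)
  have hwz' : (w : G) * z * (w : G)⁻¹ * z⁻¹ ∈ (P : Subgroup G) :=
    mul_mem ((mem_normalizer_iff.1 hwN z).1 hz) (inv_mem hz)
  have h1 := Subgroup.disjoint_def.1 hdisj (x := (⟨_, hWC hwz⟩ : C)) hwz hwz'
  have h2 : (w : G) * z * (w : G)⁻¹ * z⁻¹ = 1 := congrArg Subtype.val h1
  have h3 : (w : G) * z = z * (w : G) := by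
    rw [mul_inv_eq_one, mul_inv_eq_iff_eq_mul] at h2; exact h2
  rw [← he', ← mul_assoc, ← h3, mul_assoc, hcom z hz (u : G) hu, mul_assoc]

open scoped Classical in
set_option maxHeartbeats 1600000 in
theorem not_all_pairs [IsSimpleGroup G] (hperf : commutator G = ⊤)
    (hcyc : ∀ S : Sylow p G, IsCyclic (S : Subgroup G)) (hpG : p ∣ Nat.card G)
    (hsol : ∀ a b : G, orderOf a = p → orderOf b = p →
      Cfsg.IsPSolvable p ↥(closure ({a, b} : Set G))) : False := by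
  obtain ⟨x, hx⟩ := exists_prime_orderOf_dvd_card' p hpG
  have hx1 : x ≠ 1 := fun h => by rw [h, orderOf_one] at hx; exact hp.out.one_lt.ne hx
  obtain ⟨P, hP⟩ := (IsPGroup.of_card (n := 1) (by rw [Nat.card_zpowers, hx, pow_one]) :
    IsPGroup p ↥(zpowers x)).exists_le_sylow
  have hxP : x ∈ (P : Subgroup G) := hP (mem_zpowers x)
  obtain ⟨W, hW, hWp, hC⟩ := exists_regular_part hcyc hx P hxP
  obtain ⟨t, ht, h1, h2, h3⟩ := identities hcyc hx hW hWp hsol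
  set e := (orb x).card with he
  set q := Nat.card (P : Subgroup G) with hq
  have he2 : 2 ≤ e := two_le_orb hperf hcyc hx P hxP hW hWp hC
  have hep : e ≤ p - 1 := card_genSet hx ▸ Finset.card_le_card (orb_subset hx1)
  obtain ⟨n, hn⟩ := P.2.exists_card_eq
  have hqn : q = p ^ n := hn
  have hn0 : n ≠ 0 := by
    rintro rfl
    rw [pow_zero, Subgroup.card_eq_one] at hn
    exact hx1 (by simpa [hn] using hxP)
  have hqp : p ≤ q := hqn ▸ Nat.le_self_pow hn0 p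
  have ha0 : (Nat.card W : ℂ) ≠ 0 := Nat.cast_ne_zero.2 Nat.card_pos.ne'
  rw [card_orb_mul, hC] at h2 h3
  have hT2 : ∑ χ : IrrCharacter G, (t χ : ℂ) ^ 2 = ((p : ℂ) - 1) * (e * q : ℕ) := by
    apply mul_left_cancel₀ ha0
    rw [h2]; push_cast; ring
  have hT3 : ∑ χ : IrrCharacter G, (t χ : ℂ) ^ 3 / (χ : G → ℂ) 1 =
      ((p : ℂ) - 1) * ((p : ℂ) - 2) * (e * q : ℕ) := by
    apply mul_left_cancel₀ ha0
    rw [h3]; push_cast; ring
  choose d hd0 hd using fun χ : IrrCharacter G => Char.irr_one_pos χ.2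
  set τ := Char.trivialIrr G with hτ
  have htτ : t τ = (p : ℤ) - 1 := by
    have := (ht τ).1
    simp only [show ∀ g : G, (τ : G → ℂ) g = 1 from fun _ => rfl, Finset.sum_const, nsmul_eq_mul, mul_one, card_genSet hx] at this
    rw [← Fintype.card_subtype, ← Nat.card_eq_fintype_card, mul_comm] at this
    have h := mul_left_cancel₀ ha0 this
    rw [Nat.cast_sub hp.out.one_le, Nat.cast_one] at h
    have h' : ((t τ : ℤ) : ℂ) = (((p : ℤ) - 1 : ℤ) : ℂ) := by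
      push_cast; first | linear_combination h | linear_combination -h
    exact_mod_cast h'
  have hdτ : d τ = 1 := by
    have := hd τ
    simp only [hτ, Char.trivialIrr] at this
    exact_mod_cast this.symm
  set O := Finset.univ.erase τ with hO
  have hO1 : ∀ χ ∈ O, χ ≠ τ := fun χ h => Finset.ne_of_mem_erase h
  have hS2 : ∑ χ ∈ O, (t χ : ℝ) ^ 2 = ((p : ℝ) - 1) * ((e * q : ℕ) - ((p : ℝ) - 1)) := by
    have h : ((∑ χ ∈ O, (t χ : ℝ) ^ 2 : ℝ) : ℂ) =
        ((((p : ℝ) - 1) * ((e * q : ℕ) - ((p : ℝ) - 1)) : ℝ) : ℂ) := by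
      push_cast
      rw [hO, Finset.sum_erase_eq_sub (Finset.mem_univ τ), hT2, htτ]
      push_cast; ring
    exact_mod_cast h
  have hS3 : ∑ χ ∈ O, (t χ : ℝ) ^ 3 / (d χ : ℝ) =
      ((p : ℝ) - 1) * (((p : ℝ) - 2) * (e * q : ℕ) - ((p : ℝ) - 1) ^ 2) := by
    have h : ((∑ χ ∈ O, (t χ : ℝ) ^ 3 / (d χ : ℝ) : ℝ) : ℂ) =
        ((((p : ℝ) - 1) * (((p : ℝ) - 2) * (e * q : ℕ) - ((p : ℝ) - 1) ^ 2) : ℝ) : ℂ) := by
      have h' : ∀ χ : IrrCharacter G, (t χ : ℂ) ^ 3 / (χ : G → ℂ) 1 = (t χ : ℂ) ^ 3 / (d χ : ℂ) :=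
        fun χ => by rw [hd χ]
      simp only [h'] at hT3
      push_cast
      rw [hO, Finset.sum_erase_eq_sub (Finset.mem_univ τ), hT3, htτ, hdτ]
      push_cast; ring
    exact_mod_cast h
  have hS2z : ∑ χ ∈ O, t χ ^ 2 = ((p : ℤ) - 1) * ((e * q : ℕ) - ((p : ℤ) - 1)) := by
    exact_mod_cast hS2
  have hS1 : ∑ χ ∈ O, t χ * (d χ : ℤ) = -((p : ℤ) - 1) := by
    have h : ((∑ χ ∈ O, t χ * (d χ : ℤ) : ℤ) : ℂ) = ((-((p : ℤ) - 1) : ℤ) : ℂ) := by
      simp only [hd] at h1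
      push_cast
      rw [hO, Finset.sum_erase_eq_sub (Finset.mem_univ τ), h1, htτ, hdτ]
      push_cast; ring
    exact_mod_cast h
  have hd2 : ∀ χ ∈ O, 2 ≤ d χ := fun χ hχ => two_le_degree hperf χ (hO1 χ hχ) (hd χ)
  have hp3 : 3 ≤ p := by omega
  -- the bound on a single term
  have hterm : ∀ χ ∈ O, t χ ≠ 0 →
      (q : ℤ) * t χ ^ 2 ≤ (p : ℤ) * d χ * ((e * q : ℕ) - ((p : ℤ) - 1)) ∧ e ≤ d χ := by
    intro χ hχ htn
    have hne := faith_nonempty hcyc hx P hxP χ (hO1 χ hχ)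
    refine ⟨?_, (card_orb_le_faith hcyc hx P hxP χ hne).trans (card_faith_le hcyc P χ (hd χ))⟩
    set Y := O.filter fun ψ => t ψ = t χ ∧ d ψ = d χ with hY
    have htot := totient_le hcyc hx P hxP hW t (fun ψ => (ht ψ).1) χ (hO1 χ hχ) (hd χ) Y
      (fun ψ hψ h1 h2 => Finset.mem_filter.2 ⟨Finset.mem_erase.2 ⟨hψ, Finset.mem_univ _⟩, h1, by
        rw [hd ψ] at h2; exact_mod_cast h2⟩)
      (fun ψ hψ => by rw [hd ψ, (Finset.mem_filter.1 hψ).2.2])
    have hle : (Y.card : ℤ) * t χ ^ 2 ≤ ∑ ψ ∈ O, t ψ ^ 2 := by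
      calc (Y.card : ℤ) * t χ ^ 2 = ∑ ψ ∈ Y, t ψ ^ 2 := by
            rw [Finset.sum_congr rfl (g := fun _ => t χ ^ 2)
              (fun ψ hψ => by rw [(Finset.mem_filter.1 hψ).2.1]), Finset.sum_const, nsmul_eq_mul]
        _ ≤ _ := Finset.sum_le_sum_of_subset_of_nonneg (Finset.filter_subset _ _)
            (fun ψ _ _ => sq_nonneg _)
    rw [hS2z] at hle
    have hphi : (p : ℤ) * q.totient = ((p : ℤ) - 1) * q := by
      obtain ⟨m, rfl⟩ := Nat.exists_eq_succ_of_ne_zero hn0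
      rw [hqn, Nat.totient_prime_pow_succ hp.out, Nat.cast_mul, Nat.cast_pow,
        Nat.cast_sub hp.out.one_le, Nat.cast_pow, pow_succ]
      push_cast; ring
    have htot' : (q.totient : ℤ) ≤ (d χ : ℤ) * Y.card := by exact_mod_cast htot
    have h5 : (p : ℤ) * q.totient * t χ ^ 2 ≤ (p : ℤ) * ((d χ : ℤ) * Y.card) * t χ ^ 2 :=
      mul_le_mul_of_nonneg_right (mul_le_mul_of_nonneg_left htot' (by positivity)) (sq_nonneg _)
    have h6 : (p : ℤ) * (d χ : ℤ) * ((Y.card : ℤ) * t χ ^ 2) ≤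
        (p : ℤ) * (d χ : ℤ) * (((p : ℤ) - 1) * ((e * q : ℕ) - ((p : ℤ) - 1))) :=
      mul_le_mul_of_nonneg_left hle (by positivity)
    rw [hphi] at h5
    have hp1 : (0 : ℤ) < (p : ℤ) - 1 := by omega
    nlinarith
  set L : ℝ := ((e * q : ℕ) : ℝ) - ((p : ℝ) - 1) with hL
  set R : ℝ := ((p : ℝ) - 2) * (e * q : ℕ) - ((p : ℝ) - 1) ^ 2 with hR
  have hL0 : 0 < L := by
    have : ((2 * p : ℕ) : ℝ) ≤ (e * q : ℕ) := Nat.cast_le.2 (Nat.mul_le_mul he2 hqp)
    rw [hL]; push_cast at this ⊢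
    have : (3 : ℝ) ≤ p := by exact_mod_cast hp3
    linarith
  -- it is enough to bound every term
  suffices hkey : ∀ χ ∈ O, t χ ≠ 0 → (t χ : ℝ) * L < (d χ : ℝ) * R by
    have hlt : L * ∑ χ ∈ O, (t χ : ℝ) ^ 3 / (d χ : ℝ) < R * ∑ χ ∈ O, (t χ : ℝ) ^ 2 := by
      rw [Finset.mul_sum, Finset.mul_sum]
      have hstep : ∀ χ ∈ O, t χ ≠ 0 → L * ((t χ : ℝ) ^ 3 / d χ) < R * (t χ : ℝ) ^ 2 := by
        intro χ hχ h0
        have hdpos : (0 : ℝ) < d χ := by exact_mod_cast hd0 χ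
        have hsq : (0 : ℝ) < (t χ : ℝ) ^ 2 := sq_pos_of_ne_zero (by exact_mod_cast h0)
        rw [mul_div_assoc', div_lt_iff₀ hdpos]
        nlinarith [mul_lt_mul_of_pos_left (hkey χ hχ h0) hsq]
      refine Finset.sum_lt_sum (fun χ hχ => ?_) ?_
      · by_cases h0 : t χ = 0
        · simp [h0]
        · exact (hstep χ hχ h0).le
      · obtain ⟨χ, hχ, hne⟩ : ∃ χ ∈ O, t χ ≠ 0 := by
          by_contra hall
          push_neg at hall
          have : ∑ χ ∈ O, (t χ : ℝ) ^ 2 = 0 := Finset.sum_eq_zero fun χ hχ => by simp [hall χ hχ]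
          rw [hS2] at this
          have : (3 : ℝ) ≤ p := by exact_mod_cast hp3
          nlinarith
        exact ⟨χ, hχ, hstep χ hχ hne⟩
    rw [hS2, hS3] at hlt
    nlinarith
  intro χ hχ htn
  obtain ⟨hb, hed⟩ := hterm χ hχ htn
  rcases Nat.lt_or_ge p 5 with hp5 | hp5
  swap
  · exact term_five hp5 hqp he2 hed hb
  -- `p = 3`
  clear_value e q L R
  obtain rfl : p = 3 := by
    interval_cases p
    · rfl
    · exact absurd hp.out (by norm_num)
  obtain rfl : e = 2 := by omega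
  -- `x` is conjugate to its inverse
  have hval : ∀ ψ : IrrCharacter G, t ψ ≠ 0 → ∃ s : ℤ, t ψ = 2 * s ∧ (3 : ℤ) ∣ (d ψ : ℤ) - s ∧
      (ψ ≠ τ → s < d ψ) := by
    intro ψ hψ
    have hgen : genSet x = orb x := (Finset.eq_of_subset_of_card_le (orb_subset hx1)
      (by rw [card_genSet hx]; omega)).symm
    have hconj : ∀ u ∈ genSet x, (ψ : G → ℂ) u = (ψ : G → ℂ) x := by
      intro u hu
      rw [hgen] at hu
      obtain ⟨m, -, rfl⟩ : ∃ m ∈ normalizer (zpowers x : Set G), m * x * m⁻¹ = u := by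
        simpa [orb] using hu
      exact Char.irr_isClassFunction ψ.2 _ _
    have hS : (t ψ : ℂ) = 2 * (ψ : G → ℂ) x := by
      rw [(ht ψ).2.resolve_left hψ, Finset.sum_congr rfl hconj, Finset.sum_const, nsmul_eq_mul,
        card_genSet hx]
      norm_num
    obtain ⟨s, hs⟩ : ∃ s : ℤ, (ψ : G → ℂ) x = s := by
      have hr : (ψ : G → ℂ) x = (((t ψ : ℚ) / 2 : ℚ) : ℂ) := by push_cast; rw [hS]; ring
      obtain ⟨z, hz⟩ := Char.exists_int_of_isIntegral_rat (q := (t ψ : ℚ) / 2)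
        (hr ▸ Char.isCharacter_isIntegral (Char.isCharacter_of_irr ψ.2) x)
      exact ⟨z, by rw [hr, hz, Rat.cast_intCast]⟩
    have hts : t ψ = 2 * s := by
      rw [hs] at hS; exact_mod_cast hS
    refine ⟨s, hts, ?_, fun hne => ?_⟩
    · haveI : Fintype (zpowers x) := Fintype.ofFinite _
      obtain ⟨m, hm⟩ := Char.isCharacter_classInner_nat
        (Char.isCharacter_restrict (Char.isCharacter_of_irr ψ.2) (zpowers x))
        (Char.trivialIrr (zpowers x))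
      have hsum : ∑ w : zpowers x, (ψ : G → ℂ) w = 3 * m := by
        rw [← hm, classInner, Nat.card_zpowers, hx, ← mul_assoc]
        norm_num
        exact Finset.sum_congr rfl fun w _ => by
          show _ = _ * (starRingEnd ℂ) (1 : ℂ)
          rw [map_one, mul_one]
      have hgs : genSet x = (Finset.univ.filter fun u => u ∈ zpowers x).erase 1 := by
        ext u; simp [mem_genSet, and_comm]
      have h4 : (t ψ : ℂ) = 3 * m - d ψ := by
        rw [(ht ψ).2.resolve_left hψ, hgs, Finset.sum_erase_eq_sub (by simp),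
          Finset.sum_subtype (p := fun u => u ∈ zpowers x) _ (fun u => by simp)
            (fun u => (ψ : G → ℂ) u), hsum, hd ψ]
      have h5 : t ψ = 3 * (m : ℤ) - d ψ := by exact_mod_cast h4
      omega
    · rcases lt_or_ge s (d ψ : ℤ) with hlt | hge
      · exact hlt
      exfalso
      obtain ⟨k, ρ, -, hρ⟩ := ψ.2
      have hnorm := Char.norm_character_le ρ x
      have hk : (d ψ : ℂ) = k := by rw [← hd ψ, ← hρ, ρ.char_one, Module.finrank_fin_fun]
      rw [hρ, hs, Module.finrank_fin_fun] at hnorm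
      rw [Complex.norm_intCast] at hnorm
      have hsd : s = (d ψ : ℤ) := by
        have hk' : d ψ = k := by exact_mod_cast hk
        have : |s| ≤ (k : ℤ) := by exact_mod_cast hnorm
        rw [abs_le] at this
        omega
      exact hne (eq_trivial_of_value hx1 ψ (by rw [hs, hsd, hd ψ, Int.cast_natCast]))
  by_cases hq9 : 9 ≤ q
  · obtain ⟨s, hts, hs3, hlt⟩ := hval χ htn
    have := term_three hq9 (hd2 χ hχ) hs3 (hlt (hO1 χ hχ)) (by
      rw [hts] at hb; push_cast at hb; nlinarith)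
    rw [hL, hR, hts]
    push_cast
    nlinarith
  -- `q = 3`: impossible outright
  exfalso
  have hq3 : q = 3 := by
    rcases Nat.lt_or_ge n 2 with hn2 | hn2
    · rw [hqn, show n = 1 by omega, pow_one]
    · exact absurd (hqn ▸ Nat.pow_le_pow_right (show 0 < 3 by norm_num) hn2 : 3 ^ 2 ≤ q)
        (by norm_num; omega)
  have hS2' : ∑ ψ ∈ O, t ψ ^ 2 = 8 := by rw [hS2z, hq3]; norm_num
  set A := O.filter fun ψ => t ψ ≠ 0 with hA
  have hAsum : ∀ {M : Type} [AddCommMonoid M] (f : IrrCharacter G → M),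
      (∀ ψ, t ψ = 0 → f ψ = 0) → ∑ ψ ∈ O, f ψ = ∑ ψ ∈ A, f ψ := fun f hf =>
    (Finset.sum_subset (Finset.filter_subset _ _) fun ψ hψ hn => hf ψ (by
      by_contra h; exact hn (Finset.mem_filter.2 ⟨hψ, h⟩))).symm
  rw [hAsum _ (fun ψ h => by simp [h])] at hS2' hS1
  have hS3' : ∑ ψ ∈ A, (t ψ : ℝ) ^ 3 / (d ψ : ℝ) = 4 := by
    rw [← hAsum _ (fun ψ h => by simp [h]), hS3, hR, hq3]; norm_num
  have hA4 : ∀ ψ ∈ A, ∃ s : ℤ, t ψ = 2 * s ∧ s ≠ 0 := fun ψ hψ => by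
    obtain ⟨s, hs, -, -⟩ := hval ψ (Finset.mem_filter.1 hψ).2
    exact ⟨s, hs, fun h => (Finset.mem_filter.1 hψ).2 (by rw [hs, h, mul_zero])⟩
  have h4 : ∀ ψ ∈ A, 4 ≤ t ψ ^ 2 := fun ψ hψ => by
    obtain ⟨s, hs, hs0⟩ := hA4 ψ hψ
    have : 0 < s ^ 2 := by positivity
    rw [hs]; nlinarith
  have hcard : A.card ≤ 2 := by
    have : (A.card : ℤ) * 4 ≤ 8 := by
      rw [← hS2', ← nsmul_eq_mul]
      exact Finset.card_nsmul_le_sum A (fun ψ => t ψ ^ 2) 4 h4
    omega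
  have hA0 : A.card ≠ 0 := fun h => by
    rw [Finset.card_eq_zero] at h; rw [h, Finset.sum_empty] at hS2'; exact absurd hS2' (by norm_num)
  rcases (show A.card = 1 ∨ A.card = 2 by omega) with hc | hc
  · obtain ⟨ψ, hψ⟩ := Finset.card_eq_one.1 hc
    rw [hψ, Finset.sum_singleton] at hS2'
    obtain ⟨s, hs, -⟩ := hA4 ψ (hψ ▸ Finset.mem_singleton_self ψ)
    rw [hs] at hS2'
    have h2 : s ^ 2 = 2 := by linarith
    have : -2 < s ∧ s < 2 := ⟨by nlinarith, by nlinarith⟩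
    obtain ⟨hl, hr⟩ := this
    interval_cases s <;> norm_num at h2
  · obtain ⟨ψ, φ, hne, hψ⟩ := Finset.card_eq_two.1 hc
    have hm1 : ψ ∈ A := hψ ▸ by simp
    have hm2 : φ ∈ A := hψ ▸ by simp
    obtain ⟨s, hs, -⟩ := hA4 ψ hm1
    obtain ⟨r, hr, -⟩ := hA4 φ hm2
    have e1 := h4 ψ hm1
    have e2 := h4 φ hm2
    rw [hψ, Finset.sum_pair hne] at hS2' hS3' hS1
    rw [hs, hr] at hS2' hS3' hS1
    rw [hs] at e1; rw [hr] at e2
    have hs2 : s ^ 2 = 1 := by linarith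
    have hr2 : r ^ 2 = 1 := by linarith
    have hd1 : (2 : ℤ) ≤ d ψ := by exact_mod_cast hd2 ψ (Finset.filter_subset _ _ hm1)
    have hd1' : (2 : ℤ) ≤ d φ := by exact_mod_cast hd2 φ (Finset.filter_subset _ _ hm2)
    have hdR : (2 : ℝ) ≤ d ψ := by exact_mod_cast hd1
    have hdR' : (2 : ℝ) ≤ d φ := by exact_mod_cast hd1'
    push_cast at hS3'
    rcases sq_eq_one_iff.1 hs2 with rfl | rfl <;> rcases sq_eq_one_iff.1 hr2 with rfl | rfl
    · norm_num at hS1; omega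
    · norm_num at hS1 hS3'
      have hb' : (d φ : ℝ) = d ψ + 1 := by
        have : (d φ : ℤ) = d ψ + 1 := by omega
        exact_mod_cast this
      rw [hb'] at hS3'
      field_simp at hS3'
      nlinarith
    · norm_num at hS1 hS3'
      have hb' : (d ψ : ℝ) = d φ + 1 := by
        have : (d ψ : ℤ) = d φ + 1 := by omega
        exact_mod_cast this
      rw [hb'] at hS3'
      field_simp at hS3'
      nlinarith
    · norm_num at hS1; omega

end Cfsg.Agent.CycPairs
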