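import Mathlib
import Cfsg.Agent.CycPairs.Simple

/-!
# `p`-solvability of groups with cyclic Sylow `p`-subgroups is detected by pairs of order `p`
-/

set_option autoImplicit false
set_option linter.style.haveILetI false

namespace Cfsg.Agent.CycPairs

open Subgroup
open scoped commutatorElement

universe u

variable {p : ℕ} [hp : Fact p.Prime]

theorem isCyclic_sylow_subgroup {G : Type u} [Group G] [Finite G]
    (hcyc : ∀ S : Sylow p G, IsCyclic (S : Subgroup G)) (H : Subgroup G) (S : Sylow p H) :
    IsCyclic (S : Subgroup H) := by
  haveI := isCyclic_of_pgroup hcyc (S.2.map H.subtype)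
  exact isCyclic_of_surjective _
    ((S : Subgroup H).equivMapOfInjective H.subtype H.subtype_injective).symm.surjective

theorem isCyclic_sylow_quotient {G : Type u} [Group G] [Finite G]
    (hcyc : ∀ S : Sylow p G, IsCyclic (S : Subgroup G)) (N : Subgroup G) [N.Normal]
    (S : Sylow p (G ⧸ N)) : IsCyclic (S : Subgroup (G ⧸ N)) := by
  obtain ⟨T⟩ : Nonempty (Sylow p G) := inferInstance
  refine FGS4.isCyclic_sylow (T.mapSurjective (QuotientGroup.mk'_surjective N)) ?_ S
  haveI := hcyc T
  exact isCyclic_of_surjective ((QuotientGroup.mk' N).subgroupMap (T : Subgroup G))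
    ((QuotientGroup.mk' N).subgroupMap_surjective _)

/-- The hypothesis restricts to subgroups. -/
theorem pairs_subgroup {G : Type u} [Group G] [Finite G]
    (hsol : ∀ a b : G, orderOf a = p → orderOf b = p →
      Cfsg.IsPSolvable p ↥(closure ({a, b} : Set G))) (H : Subgroup G) :
    ∀ a b : H, orderOf a = p → orderOf b = p → Cfsg.IsPSolvable p ↥(closure ({a, b} : Set H)) := by
  intro a b ha hb
  have h := hsol (a : G) (b : G) (by rw [orderOf_coe]; exact ha) (by rw [orderOf_coe]; exact hb)
  have e : (closure ({a, b} : Set H)).map H.subtype = closure ({(a : G), (b : G)} : Set G) := by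
    rw [MonoidHom.map_closure, Set.image_pair]; rfl
  exact PSolv.isPSolvable_of_equiv
    ((closure ({a, b} : Set H)).equivMapOfInjective H.subtype H.subtype_injective).symm (e ▸ h)

theorem isPSolvable_of_pairs : ∀ (n : ℕ) (G : Type u) [Group G] [Finite G], Nat.card G ≤ n →
    (∀ S : Sylow p G, IsCyclic (S : Subgroup G)) →
    (∀ a b : G, orderOf a = p → orderOf b = p → Cfsg.IsPSolvable p ↥(closure ({a, b} : Set G))) →
    Cfsg.IsPSolvable p G := by
  intro n
  induction n with
  | zero => intro G _ _ h; exact absurd h (not_le.2 Nat.card_pos)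
  | succ n IH =>
  intro G _ _ hn hcyc hsol
  classical
  haveI : Fintype G := Fintype.ofFinite G
  have hsub : ∀ H : Subgroup G, H ≠ ⊤ → Cfsg.IsPSolvable p H := fun H hH => by
    refine IH H ?_ (isCyclic_sylow_subgroup hcyc H) (pairs_subgroup hsol H)
    have h1 : Nat.card H ≠ Nat.card G := fun h => hH (eq_top_of_card_eq H h)
    have h2 : Nat.card H ≤ Nat.card G := Nat.card_le_card_of_injective _ H.subtype_injective
    omega
  by_cases hpG : p ∣ Nat.card G
  swap
  · exact PSolv.isPSolvable_of_coprime (Nat.coprime_comm.1 ((hp.out.coprime_iff_not_dvd).2 hpG))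
  haveI := Cfsg.pPrimeCore_normal p G
  haveI := Cfsg.pCore_normal p G
  -- trivial `p'`-core
  by_cases hN : Cfsg.pPrimeCore p G = ⊥
  swap
  · set N := Cfsg.pPrimeCore p G with hNd
    set f := QuotientGroup.mk' N with hf
    refine PSolv.isPSolvable_of_extension N
      (PSolv.isPSolvable_of_coprime (PSolv.coprime_card_pPrimeCore p G)) (IH _ ?_
        (isCyclic_sylow_quotient hcyc N) ?_)
    · have h1 : Nat.card (G ⧸ N) * Nat.card N = Nat.card G :=
        (Subgroup.card_eq_card_quotient_mul_card_subgroup N).symm
      have h2 : 1 < Nat.card N := N.one_lt_card_iff_ne_bot.2 hN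
      have h3 : 0 < Nat.card (G ⧸ N) := Nat.card_pos
      have h4 : 2 * Nat.card (G ⧸ N) ≤ Nat.card G := by
        rw [← h1, mul_comm 2]; exact Nat.mul_le_mul_left _ h2
      omega
    · intro a b ha hb
      have hlift : ∀ c : G ⧸ N, orderOf c = p → ∃ y : G, orderOf y = p ∧ zpowers (f y) = zpowers c := by
        intro c hc
        obtain ⟨z, hz⟩ := exists_prime_orderOf_dvd_card' (G := (zpowers c).comap f) p (by
          have h5 := card_dvd_of_surjective (f.subgroupComap (zpowers c))
            (f.subgroupComap_surjective_of_surjective _ (QuotientGroup.mk'_surjective N))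
          rwa [Nat.card_zpowers, hc] at h5)
        have hzo : orderOf (z : G) = p := by rw [orderOf_coe]; exact hz
        refine ⟨z, hzo, eq_of_le_of_card_ge (zpowers_le.2 z.2) ?_⟩
        rw [Nat.card_zpowers, Nat.card_zpowers, hc]
        refine le_of_eq (Eq.symm (orderOf_eq_prime
          (by rw [← map_pow, ← hzo, pow_orderOf_eq_one, map_one]) fun h => ?_))
        have h' : (z : G) ∈ N := (QuotientGroup.eq_one_iff _).1 h
        have h6 : p ∣ Nat.card N := hzo ▸ orderOf_mk (z : G) h' ▸ orderOf_dvd_natCard _
        exact hp.out.not_dvd_one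
          ((Nat.dvd_gcd h6 dvd_rfl).trans (dvd_of_eq (PSolv.coprime_card_pPrimeCore p G)))
      obtain ⟨y, hy, hya⟩ := hlift a ha
      obtain ⟨z, hz, hzb⟩ := hlift b hb
      have e : (closure ({y, z} : Set G)).map f = closure ({a, b} : Set (G ⧸ N)) := by
        rw [MonoidHom.map_closure, Set.image_pair]
        simp only [Set.insert_eq, Subgroup.closure_union, ← zpowers_eq_closure, hya, hzb]
      exact e ▸ PSolv.isPSolvable_of_surjective (f.subgroupMap (closure ({y, z} : Set G)))
        (f.subgroupMap_surjective _) (hsol y z hy hz)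
  by_cases hO : Cfsg.pCore p G = ⊥
  swap
  · obtain ⟨z, hz⟩ := exists_prime_orderOf_dvd_card' p hpG
    set Z := zpowers z with hZ
    have hall : ∀ w : G, orderOf w = p → w ∈ Z := fun w hw =>
      mem_zpowers_of_two hcyc (PSolv.isPGroup_pCore p G) hO hz hw
    haveI hZn : Z.Normal := ⟨fun a ha g => by
      by_cases ha1 : a = 1
      · simp [ha1]
      · refine hall _ ?_
        rw [show orderOf (g * a * g⁻¹) = orderOf a from (MulAut.conj g).orderOf_eq a]
        have h1 : orderOf a ∣ p := hz ▸ Nat.card_zpowers z ▸ orderOf_mk a ha ▸ orderOf_dvd_natCard _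
        exact ((Nat.dvd_prime hp.out).1 h1).resolve_left (by simpa using ha1)⟩
    set C := centralizer (Z : Set G) with hCd
    by_cases hC : C = ⊤
    · obtain ⟨P, hP⟩ := (IsPGroup.of_card (n := 1) (by rw [Nat.card_zpowers, hz, pow_one]) :
        IsPGroup p ↥(zpowers z)).exists_le_sylow
      obtain ⟨Q, V, hVn, hVc⟩ := FGSev.hasNormalPComplement_of_cyclic_sylow_central P (hcyc P)
        (x := z) (hP (mem_zpowers z)) (fun h => by
          rw [h, orderOf_one] at hz; exact hp.out.one_lt.ne hz) (mem_center_iff.2 fun g => by
          have hg : g ∈ C := hC ▸ mem_top g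
          exact (mem_centralizer_iff.1 hg z (mem_zpowers z)).symm)
      haveI := hVn
      have hidx : V.index = Nat.card (Q : Subgroup G) := hVc.symm.index_eq_card
      refine PSolv.isPSolvable_of_extension V (PSolv.isPSolvable_of_coprime ?_)
        (PSolv.isPSolvable_of_isPGroup ?_)
      · rw [Nat.coprime_comm, hp.out.coprime_iff_not_dvd]
        intro hd
        exact Q.not_dvd_index (by rw [hVc.index_eq_card]; exact hd)
      · obtain ⟨k, hk⟩ := Q.2.exists_card_eq
        exact IsPGroup.of_card (n := k) (by rw [← V.index_eq_card, hidx, hk])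
    · have hCn : (normalizer (Z : Set G)) = ⊤ := normalizer_eq_top Z
      haveI : C.Normal := inferInstance
      refine PSolv.isPSolvable_of_extension C (hsub C hC) (PSolv.isPSolvable_of_isSolvable ?_)
      have hle : (MulAut.conjNormal (H := Z)).ker = C := by
        ext g
        rw [MonoidHom.mem_ker, hCd, mem_centralizer_iff]
        constructor
        · intro h w hw
          have h2 := congrArg Subtype.val (DFunLike.congr_fun h ⟨w, hw⟩)
          simp only [MulAut.conjNormal_apply, MulAut.one_apply] at h2
          exact (mul_inv_eq_iff_eq_mul.1 h2).symm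
        · intro h
          ext w
          simp only [MulAut.conjNormal_apply, MulAut.one_apply]
          rw [← h (w : G) w.2, mul_inv_cancel_right]
      have hsolq : Group.IsSolvable (G ⧸ (MulAut.conjNormal (H := Z)).ker) := by
        haveI : Group.IsSolvable ↥(MulAut.conjNormal (H := Z)).range := by
          have hcomm : ∀ a b : MulAut Z, a * b = b * a := by
            intro a b
            have e := IsCyclic.mulAutMulEquiv ↥Z
            exact e.injective (by rw [map_mul, map_mul, mul_comm])
          haveI : Group.IsSolvable (MulAut Z) := Group.isSolvable_of_comm hcomm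
          infer_instance
        exact solvable_of_solvable_injective
          (f := (QuotientGroup.quotientKerEquivRange (MulAut.conjNormal (H := Z))).toMonoidHom)
          (MulEquiv.injective _)
      haveI := hsolq
      exact solvable_of_surjective (f := (QuotientGroup.quotientMulEquivOfEq hle).toMonoidHom)
        (MulEquiv.surjective _)
  -- simple
  exfalso
  haveI : Nontrivial G := Finite.one_lt_card_iff_nontrivial.1
    (lt_of_lt_of_le hp.out.one_lt (Nat.le_of_dvd Nat.card_pos hpG))
  have hsimple : IsSimpleGroup G := by
    refine ⟨fun T hT => ?_⟩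
    by_cases hTb : T = ⊥
    · exact Or.inl hTb
    right
    by_contra hTt
    haveI := hT
    haveI : Nontrivial T := T.nontrivial_iff_ne_bot.2 hTb
    rcases PSolv.pCore_ne_bot_or_pPrimeCore_ne_bot (hsub T hTt) with h | h
    · apply h
      have := PSolv.map_pCore_subtype_le (p := p) (N := T)
      rw [hO, le_bot_iff, map_eq_bot_iff_of_injective _ T.subtype_injective] at this
      exact this
    · apply h
      have := PSolv.map_pPrimeCore_subtype_le (p := p) (N := T)
      rw [hN, le_bot_iff, map_eq_bot_iff_of_injective _ T.subtype_injective] at this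
      exact this
  have hperf : commutator G = ⊤ := by
    rcases (Subgroup.Normal.eq_bot_or_eq_top (H := _root_.commutator G) inferInstance) with h | h
    · exfalso
      have hs : Group.IsSolvable G := Group.isSolvable_of_comm fun a b => by
        have h2 : ⁅a, b⁆ ∈ _root_.commutator G :=
          commutator_mem_commutator (mem_top a) (mem_top b)
        rw [h] at h2
        have := mem_bot.1 h2
        exact commutatorElement_eq_one_iff_mul_comm.1 this
      have := PSolv.isPSolvable_of_isSolvable (p := p) hs
      rcases PSolv.pCore_ne_bot_or_pPrimeCore_ne_bot this with h' | h'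
      · exact h' hO
      · exact h' hN
    · exact h
  exact not_all_pairs hperf hcyc hpG hsol

end Cfsg.Agent.CycPairs
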